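import Mathlib
import Cfsg.Prelude.Def_LieExceptional

set_option autoImplicit false

/-! Definitions and exact statements of the pieces for S4068 (a non-solvable group with exactly
four automorphism orbits is `A₅`).  Each `St…` is a `Prop`; a piece is a theorem proving it
(universe-polymorphic where marked).  Plan: four orbits + Burnside `p^a q^b` force every
non-identity element to have prime order (`Epo`); then centralisers of non-identity elements are
`p`-groups, so the odd-order CN theorem (S0183) and the theorem on abelian involution centralisers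
(S2202) leave only `G ≃ SL₂(F)`, `F` of characteristic 2, and `Epo` forces `#F = 4`. -/

namespace Cfsg.Agent.H93.AOrb

universe u

/-- every non-identity element has prime order -/
def Epo (G : Type u) [Group G] : Prop := ∀ g : G, g ≠ 1 → (orderOf g).Prime

/-- the odd-order CN theorem (S0183), as a hypothesis -/
def CNOdd : Prop :=
  ∀ (K : Type u) [Group K] [Finite K], Odd (Nat.card K) → Cfsg.IsCNGroup K → Group.IsSolvable K

/-- ORBCOUNT: the number of element orders is at most the number of automorphism orbits. -/
def StOrbCount : Prop :=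
  ∀ (G : Type u) [Group G] [Finite G] (s : Finset ℕ), (∀ k ∈ s, ∃ g : G, orderOf g = k) →
    s.card ≤ Nat.card (MulAction.orbitRel.Quotient (MulAut G) G)

/-- THREEPRIMES: the order of a non-solvable group has at least three prime divisors
(Burnside's `p^a q^b` theorem). -/
def StThreePrimes : Prop :=
  ∀ (G : Type u) [Group G] [Finite G], ¬ Group.IsSolvable G →
    ∃ p q r : ℕ, p.Prime ∧ q.Prime ∧ r.Prime ∧ p ≠ q ∧ p ≠ r ∧ q ≠ r ∧
      p ∣ Nat.card G ∧ q ∣ Nat.card G ∧ r ∣ Nat.card G

/-- EPOCN: if every non-identity element has prime order, centralisers of non-identity elements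
are nilpotent (they are `p`-groups). -/
def StEpoCN : Prop := ∀ (G : Type u) [Group G] [Finite G], Epo G → Cfsg.IsCNGroup G

/-- EPOINV: if every non-identity element has prime order, involution centralisers are
commutative (they have exponent 2). -/
def StEpoInv : Prop :=
  ∀ (G : Type u) [Group G] [Finite G], Epo G → ∀ t : G, orderOf t = 2 →
    IsMulCommutative ↥(Subgroup.centralizer ({t} : Set G))

/-- CYC: cyclic Sylow 2-subgroups: a normal 2-complement, which is an odd-order CN-group. -/
def StCyc : Prop :=
  ∀ (G : Type u) [Group G] [Finite G], Epo G → CNOdd.{u} → (∀ P : Sylow 2 G, IsCyclic ↥P) →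
    Group.IsSolvable G

/-- NORM: a normal Sylow 2-subgroup: the quotient is an odd-order CN-group. -/
def StNorm : Prop :=
  ∀ (G : Type u) [Group G] [Finite G], Epo G → CNOdd.{u} →
    (∀ P : Sylow 2 G, (P : Subgroup G).Normal) → Group.IsSolvable G

/-- SLA: in `SL₂(F) × A` with `F` of characteristic 2 and `A` of odd order, `A` is trivial
(otherwise there is an element of order `2p`), and `SL₂(F)` inherits the property. -/
def StSLA : Prop :=
  ∀ (G : Type u) [Group G] [Finite G], Epo G →
    ∀ (F : Type) [Field F] [Fintype F] (A : Type) [CommGroup A] [Finite A], CharP F 2 →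
      Odd (Nat.card A) → (G ≃* Matrix.SpecialLinearGroup (Fin 2) F × A) →
      Nat.card A = 1 ∧ Epo (Matrix.SpecialLinearGroup (Fin 2) F)

/-- SLTORUS: the diagonal torus has order `#F - 1`. -/
def StSLTorus : Prop :=
  ∀ (F : Type) [Field F] [Fintype F], Epo (Matrix.SpecialLinearGroup (Fin 2) F) →
    Fintype.card F = 2 ∨ (Fintype.card F - 1).Prime

/-- SL8: `SL₂(8)` has an element of order 9. -/
def StSL8 : Prop :=
  ∀ (F : Type) [Field F] [Fintype F], CharP F 2 → Fintype.card F = 8 →
    ¬ Epo (Matrix.SpecialLinearGroup (Fin 2) F)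

/-- SLARITH: arithmetic: `2^n - 1` prime and at most three primes dividing `2^n (2^(2n) - 1)`
force `n = 2` or `n = 3`. -/
def StSLArith : Prop :=
  ∀ n p q r : ℕ, 2 ≤ n → (2 ^ n - 1).Prime →
    (∀ l : ℕ, l.Prime → l ∣ 2 ^ n * ((2 ^ n) ^ 2 - 1) → l = p ∨ l = q ∨ l = r) → n = 2 ∨ n = 3

end Cfsg.Agent.H93.AOrb
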