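import Mathlib
import Cfsg.Prelude.Def_DegreeGraph
import Cfsg.Agent.H6.G22

set_option autoImplicit false

/-! Definitions and exact statements of the pieces for S3670 (a solvable group with the order and
the character degree graph of `PSU₃(3)`).  Each `Stmt…` is a `Prop`; a piece is a theorem proving
it.  `SU9`, `rho` (the action on the 63 non-isotropic points) and `ptn` are helper6's
(`Cfsg/Agent/H6/G22.lean`, `G22Check.lean`). -/

namespace Cfsg.Agent.H93.U33

open Cfsg Cfsg.Agent.H6.G22 Cfsg.Agent.H6.L29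

/-- orthogonality of two of the 63 non-isotropic points -/
def orth (i j : Fin 63) : Prop := Cfsg.hermForm 3 GF9 3 (ptn i.val) (ptn j.val) = 0

instance : DecidableRel orth := fun i j => by unfold orth; infer_instance

/-- the adjacency matrix of the orthogonality graph on the 63 points -/
def adjM : Matrix (Fin 63) (Fin 63) ℤ := Matrix.of fun i j => if orth i j then 1 else 0

/-- RK-T: `SU₃(3)` is transitive on the 63 points. -/
def StmtRkT : Prop := ∀ i : Fin 63, ∃ X : SU9, rho X 0 = i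

/-- RK-R: the stabiliser of the point `0` has at most 4 orbits. -/
def StmtRkR : Prop :=
  ∃ a b c : Fin 63, ∀ i : Fin 63, ∃ X : SU9, rho X 0 = 0 ∧
    (rho X 0 = i ∨ rho X a = i ∨ rho X b = i ∨ rho X c = i)

/-- RK-I: orthogonality is invariant. -/
def StmtRkI : Prop := ∀ (X : SU9) (i j : Fin 63), orth (rho X i) (rho X j) ↔ orth i j

/-- RK-M: the spectrum of the orthogonality graph: eigenvalues `6, 3, -1, -3`, and the traces
of the first powers. -/
def StmtRkM : Prop := StmtRkT → StmtRkI →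
  adjM ^ 4 - 5 • adjM ^ 3 - 15 • adjM ^ 2 + 45 • adjM
      + 54 • (1 : Matrix (Fin 63) (Fin 63) ℤ) = 0 ∧
    adjM.trace = 0 ∧ (adjM ^ 2).trace = 378 ∧ (adjM ^ 3).trace = 378

/-- SPEC: a transitive group of rank at most 4 on 63 points with an invariant integer matrix
with these spectral data has irreducible characters of degrees 14 and 21. -/
def StmtSpec : Prop :=
  ∀ (G : Type) [Group G] [Finite G] (φ : G →* Equiv.Perm (Fin 63))
    (A : Matrix (Fin 63) (Fin 63) ℤ),
    (∀ i : Fin 63, ∃ g : G, φ g 0 = i) →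
    (∃ a b c : Fin 63, ∀ i : Fin 63, ∃ g : G, φ g 0 = 0 ∧
      (φ g 0 = i ∨ φ g a = i ∨ φ g b = i ∨ φ g c = i)) →
    (∀ (g : G) (i j : Fin 63), A (φ g i) (φ g j) = A i j) →
    A ^ 4 - 5 • A ^ 3 - 15 • A ^ 2 + 45 • A + 54 • (1 : Matrix (Fin 63) (Fin 63) ℤ) = 0 →
    A.trace = 0 → (A ^ 2).trace = 378 → (A ^ 3).trace = 378 →
    14 ∈ Cfsg.charDegrees G ∧ 21 ∈ Cfsg.charDegrees G

/-- TI-1: a Sylow 7-subgroup of `SU₃(3)` is self-centralising with normaliser of order 21. -/
def StmtTI1 : Prop :=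
  ∃ P : Subgroup SU9, Nat.card P = 7 ∧ Nat.card (Subgroup.centralizer (P : Set SU9)) = 7 ∧
    Nat.card (Subgroup.normalizer (P : Set SU9)) = 21

/-- the output of the theory of exceptional characters for a self-centralising subgroup of
order 7 with normaliser of order 21 (`e = 3`, `m = 2`) -/
def ExcData (G : Type) [Group G] : Prop :=
  ∃ (ε c : ℤ) (d : ℕ) (s : ℤ) (v : Cfsg.IrrCharacter G → ℤ) (T : Finset (Cfsg.IrrCharacter G)),
    (ε = 1 ∨ ε = -1) ∧ d ∈ Cfsg.charDegrees G ∧ (d : ℤ) - ε * 3 = c + s * 7 ∧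
    (∀ ψ ∈ T, Cfsg.charDegree ψ.1 ≠ 1 ∧
      ∃ t : ℤ, (Cfsg.charDegree ψ.1 : ℤ) = v ψ + t * 7) ∧
    ∑ ψ ∈ T, v ψ ^ 2 = 2 + 2 * ε * c - 2 * c ^ 2 ∧
    1 + ∑ ψ ∈ T, v ψ * (Cfsg.charDegree ψ.1 : ℤ) = d * (ε - 2 * c)

/-- TI-2: the exceptional characters. -/
def StmtTI2 : Prop :=
  ∀ (G : Type) [Group G] [Finite G] [IsSimpleGroup G], Nat.card G = 6048 →
    ∀ P : Subgroup G, Nat.card P = 7 → Nat.card (Subgroup.centralizer (P : Set G)) = 7 →
      Nat.card (Subgroup.normalizer (P : Set G)) = 21 → ExcData G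

/-- TI-3: arithmetic: some degree is divisible by 6. -/
def StmtTI3 : Prop :=
  ∀ (G : Type) [Group G] [Finite G], Nat.card G = 6048 → ExcData G →
    ∃ d ∈ Cfsg.charDegrees G, 6 ∣ d

/-- SOLV-A: a solvable group of order 56 with an irreducible character of degree 7. -/
def StmtSolvA : Prop :=
  ∃ (A : Type) (_ : Group A) (_ : Fintype A), Group.IsSolvable A ∧ Nat.card A = 56 ∧
    7 ∈ Cfsg.charDegrees A

/-- SOLV-B: a solvable group of order 108 with an irreducible character of degree 6. -/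
def StmtSolvB : Prop :=
  ∃ (B : Type) (_ : Group B) (_ : Fintype B), Group.IsSolvable B ∧ Nat.card B = 108 ∧
    6 ∈ Cfsg.charDegrees B

/-- PROD: degrees of a direct product. -/
def StmtProd : Prop :=
  ∀ (A B : Type) [Group A] [Group B] [Finite A] [Finite B] (a b : ℕ),
    a ∈ Cfsg.charDegrees A → b ∈ Cfsg.charDegrees B → a * b ∈ Cfsg.charDegrees (A × B)

end Cfsg.Agent.H93.U33
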