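import Mathlib
import Cfsg.Agent.H93.AOrbDefs

set_option autoImplicit false
set_option linter.style.haveILetI false

/-! Assembly for S4068 from the pieces of `AOrbDefs` and the rows S0183, S2202, S0494 (taken as
hypotheses here). -/

namespace Cfsg.Agent.H93.AOrb

universe u

/-- S2202 as a hypothesis -/
def S2202Stmt : Prop :=
  ∀ (G : Type u) [Group G] [Finite G], Even (Nat.card G) →
    (∀ t : G, orderOf t = 2 → IsMulCommutative ↥(Subgroup.centralizer ({t} : Set G))) →
    (∀ P : Sylow 2 G, IsCyclic ↥P) ∨ (∀ P : Sylow 2 G, (P : Subgroup G).Normal) ∨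
    (∃ (F : Type) (_ : Field F) (_ : Fintype F) (A : Type) (_ : CommGroup A) (_ : Finite A),
      CharP F 2 ∧ Odd (Nat.card A) ∧
        Nonempty (G ≃* Matrix.SpecialLinearGroup (Fin 2) F × A))

theorem main_of (hOC : StOrbCount.{u}) (h3 : StThreePrimes.{u}) (hCN : StEpoCN.{u})
    (hInv : StEpoInv.{u}) (hCyc : StCyc.{u}) (hNorm : StNorm.{u}) (hSLA : StSLA.{u})
    (hT : StSLTorus) (h8 : StSL8) (hAr : StSLArith) (hodd : CNOdd.{u}) (h2202 : S2202Stmt.{u})
    (hpq : ∀ (G : Type u) [Group G] [Finite G] (p q a b : ℕ), p.Prime → q.Prime →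
      Nat.card G = p ^ a * q ^ b → Group.IsSolvable G)
    (h60 : ∀ (G : Type u) [Group G] [Finite G], Nat.card G = 60 → ¬ Group.IsSolvable G →
      Nonempty (G ≃* alternatingGroup (Fin 5)))
    (hSL : ∀ (F : Type) [Field F] [Fintype F],
      Nat.card (Matrix.SpecialLinearGroup (Fin 2) F) = Fintype.card F * (Fintype.card F ^ 2 - 1))
    {G : Type u} [Group G] [Finite G] (hns : ¬ Group.IsSolvable G)
    (h4 : Nat.card (MulAction.orbitRel.Quotient (MulAut G) G) = 4) :
    Nonempty (G ≃* alternatingGroup (Fin 5)) := by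
  obtain ⟨p, q, r, hp, hq, hr, hpq', hpr, hqr, hpd, hqd, hrd⟩ := h3 G hns
  haveI := Fact.mk hp
  haveI := Fact.mk hq
  haveI := Fact.mk hr
  obtain ⟨xp, hxp⟩ := exists_prime_orderOf_dvd_card' p hpd
  obtain ⟨xq, hxq⟩ := exists_prime_orderOf_dvd_card' q hqd
  obtain ⟨xr, hxr⟩ := exists_prime_orderOf_dvd_card' r hrd
  have hord : ∀ g : G, orderOf g = 1 ∨ orderOf g = p ∨ orderOf g = q ∨ orderOf g = r := by
    intro g
    by_contra hcon
    push Not at hcon
    obtain ⟨h1, h2, h3', h4'⟩ := hcon
    have hc := hOC G ({1, p, q, r, orderOf g} : Finset ℕ) (by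
      intro k hk
      simp only [Finset.mem_insert, Finset.mem_singleton] at hk
      rcases hk with rfl | rfl | rfl | rfl | rfl
      · exact ⟨1, orderOf_one⟩
      · exact ⟨xp, hxp⟩
      · exact ⟨xq, hxq⟩
      · exact ⟨xr, hxr⟩
      · exact ⟨g, rfl⟩)
    rw [h4] at hc
    have hp1 : (1 : ℕ) ≠ p := hp.ne_one.symm
    have hq1 : (1 : ℕ) ≠ q := hq.ne_one.symm
    have hr1 : (1 : ℕ) ≠ r := hr.ne_one.symm
    have h5 : ({1, p, q, r, orderOf g} : Finset ℕ).card = 5 := by
      rw [Finset.card_insert_of_notMem, Finset.card_insert_of_notMem,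
        Finset.card_insert_of_notMem, Finset.card_insert_of_notMem, Finset.card_singleton]
      · simp only [Finset.mem_singleton]
        exact fun h => h4' h.symm
      · simp only [Finset.mem_insert, Finset.mem_singleton]
        rintro (h | h)
        · exact hqr h
        · exact h3' h.symm
      · simp only [Finset.mem_insert, Finset.mem_singleton]
        rintro (h | h | h)
        · exact hpq' h
        · exact hpr h
        · exact h2 h.symm
      · simp only [Finset.mem_insert, Finset.mem_singleton]
        rintro (h | h | h | h)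
        · exact hp1 h
        · exact hq1 h
        · exact hr1 h
        · exact h1 h.symm
    omega
  have hepo : Epo G := by
    intro g hg
    rcases hord g with h | h | h | h
    · exact absurd (orderOf_eq_one_iff.mp h) hg
    · rw [h]; exact hp
    · rw [h]; exact hq
    · rw [h]; exact hr
  have hev : Even (Nat.card G) := by
    by_contra hne
    exact hns (hodd G (Nat.not_even_iff_odd.mp hne) (hCN G hepo))
  rcases h2202 G hev (hInv G hepo) with hc | hn | ⟨F, _, _, A, _, _, hchar, hAodd, ⟨e⟩⟩
  · exact absurd (hCyc G hepo hodd hc) hns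
  · exact absurd (hNorm G hepo hodd hn) hns
  · obtain ⟨hA1, hepoSL⟩ := hSLA G hepo F A hchar hAodd e
    have hcardG : Nat.card G = Fintype.card F * (Fintype.card F ^ 2 - 1) := by
      rw [Nat.card_congr e.toEquiv, Nat.card_prod, hA1, mul_one, hSL F]
    have hprimes : ∀ l : ℕ, l.Prime → l ∣ Nat.card G → l = p ∨ l = q ∨ l = r := by
      intro l hl hld
      haveI := Fact.mk hl
      obtain ⟨x, hx⟩ := exists_prime_orderOf_dvd_card' l hld
      rcases hord x with h | h | h | h
      · rw [hx] at h; exact absurd h hl.ne_one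
      · left; rw [← hx, h]
      · right; left; rw [← hx, h]
      · right; right; rw [← hx, h]
    rcases hT F hepoSL with h2 | hprime
    · exfalso
      apply hns
      apply hpq G 2 3 1 1 Nat.prime_two Nat.prime_three
      rw [hcardG, h2]
      norm_num
    · haveI := hchar
      obtain ⟨n, -, hn⟩ := FiniteField.card F 2
      have hn2 : 2 ≤ (n : ℕ) := by
        by_contra hlt
        have h1 : (n : ℕ) = 1 := by have := n.pos; omega
        rw [hn, h1] at hprime
        exact absurd hprime (by norm_num)
      rw [hn] at hprime hcardG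
      rcases hAr n p q r hn2 hprime (fun l hl hld => hprimes l hl (hcardG ▸ hld)) with h | h
      · apply h60 G _ hns
        rw [hcardG, h]
        norm_num
      · exfalso
        exact h8 F hchar (by rw [hn, h]; norm_num) hepoSL

end Cfsg.Agent.H93.AOrb
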