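import Mathlib
import Cfsg.Agent.H93.AOrbDefs

set_option autoImplicit false
set_option linter.style.haveILetI false

/-! AO-SLA for S4068: in `SL₂(F) × A` (characteristic 2, `A` of odd order) with all non-identity
elements of prime order, `A` is trivial. -/

namespace Cfsg.Agent.H93.AOrb

universe u

/-- the transvection `[[1,1],[0,1]]` -/
def tvec (F : Type) [Field F] : Matrix.SpecialLinearGroup (Fin 2) F :=
  ⟨!![1, 1; 0, 1], by simp [Matrix.det_fin_two]⟩

theorem tvec_order (F : Type) [Field F] [CharP F 2] : orderOf (tvec F) = 2 := by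
  haveI : Fact (Nat.Prime 2) := ⟨Nat.prime_two⟩
  have h2 : (1 : F) + 1 = 0 := CharTwo.add_self_eq_zero 1
  apply orderOf_eq_prime
  · apply Subtype.ext
    rw [Matrix.SpecialLinearGroup.coe_pow, Matrix.SpecialLinearGroup.coe_one]
    show (!![1, 1; 0, 1] : Matrix (Fin 2) (Fin 2) F) ^ 2 = 1
    rw [pow_two, Matrix.mul_fin_two, Matrix.one_fin_two]
    simp [h2]
  · intro h
    have h1 := congrArg (fun m : Matrix.SpecialLinearGroup (Fin 2) F => m.1 0 1) h
    have h3 : (1 : F) = 0 := h1
    exact one_ne_zero h3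

theorem slA : StSLA.{u} := by
  intro G _ _ hepo F _ _ A _ _ hchar hAodd e
  haveI := hchar
  have hepoP : ∀ x : Matrix.SpecialLinearGroup (Fin 2) F × A, x ≠ 1 → (orderOf x).Prime := by
    intro x hx
    have h := hepo (e.symm x) (by
      intro h
      apply hx
      have h' : e (e.symm x) = e 1 := by rw [h]
      simpa using h')
    rwa [MulEquiv.orderOf_eq] at h
  constructor
  · by_contra hA
    have hex : ∃ a : A, a ≠ 1 := by
      by_contra hall
      push Not at hall
      apply hA
      exact Nat.card_eq_one_iff_unique.mpr ⟨⟨fun a b => by rw [hall a, hall b]⟩, ⟨1⟩⟩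
    obtain ⟨a, ha⟩ := hex
    have hoa : Odd (orderOf a) := hAodd.of_dvd_nat (orderOf_dvd_natCard a)
    have hne : ((tvec F, a) : Matrix.SpecialLinearGroup (Fin 2) F × A) ≠ 1 := by
      intro h
      exact ha (congrArg Prod.snd h)
    have hpr := hepoP (tvec F, a) hne
    rw [Prod.orderOf, tvec_order] at hpr
    have hcop : Nat.Coprime 2 (orderOf a) := (Nat.coprime_two_left).mpr hoa
    rw [hcop.lcm_eq_mul] at hpr
    have h1 : orderOf a = 1 := by
      rcases (Nat.prime_mul_iff.mp hpr) with ⟨-, h⟩ | ⟨-, h⟩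
      · exact h
      · exact absurd h (by norm_num)
    exact ha (orderOf_eq_one_iff.mp h1)
  · intro x hx
    have h := hepoP (x, 1) (by
      intro h
      exact hx (congrArg Prod.fst h))
    rwa [Prod.orderOf, orderOf_one, Nat.lcm_one_right] at h

end Cfsg.Agent.H93.AOrb
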