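import Mathlib
import Cfsg.Agent.H93.AOrbDefs

set_option autoImplicit false
set_option linter.style.haveILetI false

/-! AO-SLTORUS for S4068: the diagonal torus of `SL₂(F)` has order `#F - 1`. -/

namespace Cfsg.Agent.H93.AOrb

/-- `u ↦ diag(u, u⁻¹)` -/
def diagHom (F : Type) [Field F] : Fˣ →* Matrix.SpecialLinearGroup (Fin 2) F where
  toFun u := ⟨!![(u : F), 0; 0, ((u⁻¹ : Fˣ) : F)], by simp [Matrix.det_fin_two]⟩
  map_one' := by
    apply Subtype.ext
    rw [Matrix.SpecialLinearGroup.coe_one]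
    show !![((1 : Fˣ) : F), 0; 0, (((1 : Fˣ)⁻¹ : Fˣ) : F)] = 1
    rw [Matrix.one_fin_two]
    simp
  map_mul' u v := by
    apply Subtype.ext
    show !![((u * v : Fˣ) : F), 0; 0, (((u * v)⁻¹ : Fˣ) : F)] =
      !![(u : F), 0; 0, ((u⁻¹ : Fˣ) : F)] * !![(v : F), 0; 0, ((v⁻¹ : Fˣ) : F)]
    rw [Matrix.mul_fin_two]
    simp [mul_comm]

theorem diagHom_injective (F : Type) [Field F] : Function.Injective (diagHom F) := by
  intro u v h
  have h1 := congrArg (fun m : Matrix.SpecialLinearGroup (Fin 2) F => m.1 0 0) h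
  have h2 : (u : F) = (v : F) := h1
  exact Units.ext h2

theorem slTorus : StSLTorus := by
  intro F _ _ hepo
  classical
  obtain ⟨g, hg⟩ := IsCyclic.exists_generator (α := Fˣ)
  have hgo : orderOf g = Fintype.card F - 1 := by
    rw [orderOf_eq_card_of_forall_mem_zpowers hg, Nat.card_eq_fintype_card, Fintype.card_units]
  have hdo : orderOf (diagHom F g) = Fintype.card F - 1 := by
    rw [orderOf_injective (diagHom F) (diagHom_injective F) g, hgo]
  by_cases h1 : diagHom F g = 1
  · left
    rw [h1, orderOf_one] at hdo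
    have hpos : 1 < Fintype.card F := Fintype.one_lt_card
    omega
  · right
    rw [← hdo]
    exact hepo _ h1

end Cfsg.Agent.H93.AOrb
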