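import Mathlib
import Cfsg.Agent.H72.BaerBasic

/-!
# S4125 team project, piece T4: the reducible case of Lemma T (helper93)

`solvable_of_inv`: if `A ≤ Aut V` satisfies the hypotheses `TH p q V A` of Lemma T and `V` has a
proper nontrivial `A`-invariant subgroup `W`, then `A` is solvable, provided Lemma T holds for all
smaller groups `V'` (applied to `W` and `V ⧸ W`).
-/

set_option autoImplicit false
set_option linter.style.haveILetI false
set_option linter.unusedSectionVars false

namespace Cfsg.Agent.H93.Baer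

open Cfsg.Agent.H72.BaerT

universe u

variable {p q : ℕ} {V : Type u} [CommGroup V] [Finite V] {A : Subgroup (MulAut V)}

omit [Finite V] in
/-- restriction of `A` to an invariant subgroup -/
def resW {W : Subgroup V} (hW : Inv A W) : ↥A →* MulAut ↥W where
  toFun a :=
    { toFun := fun w => ⟨a.1 w.1, hW a.1 a.2 w.1 w.2⟩
      invFun := fun w => ⟨a.1⁻¹ w.1, hW a.1⁻¹ (inv_mem a.2) w.1 w.2⟩
      left_inv := fun w => Subtype.ext (MulAut.inv_apply_self _ a.1 w.1)
      right_inv := fun w => Subtype.ext (MulAut.apply_inv_self _ a.1 w.1)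
      map_mul' := fun u v => Subtype.ext (map_mul a.1 u.1 v.1) }
  map_one' := by
    ext w
    rfl
  map_mul' := fun a b => by
    ext w
    rfl

omit [Finite V] in
theorem resW_apply {W : Subgroup V} (hW : Inv A W) (a : ↥A) (w : ↥W) :
    ((resW hW a w : ↥W) : V) = a.1 w.1 := rfl

omit [Finite V] in
theorem map_eq_of_inv {W : Subgroup V} (hW : Inv A W) (a : ↥A) :
    W.map ((a.1 : V ≃* V) : V →* V) = W := by
  apply le_antisymm
  · rintro _ ⟨w, hw, rfl⟩
    exact hW a.1 a.2 w hw
  · intro w hw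
    exact ⟨a.1⁻¹ w, hW a.1⁻¹ (inv_mem a.2) w hw, MulAut.apply_inv_self _ a.1 w⟩

omit [Finite V] in
/-- the action of `A` on the quotient by an invariant subgroup -/
def quoW {W : Subgroup V} (hW : Inv A W) : ↥A →* MulAut (V ⧸ W) where
  toFun a := QuotientGroup.congr W W a.1 (map_eq_of_inv hW a)
  map_one' := by
    ext x
    induction x using QuotientGroup.induction_on with
    | H x => rfl
  map_mul' := fun a b => by
    ext x
    induction x using QuotientGroup.induction_on with
    | H x => rfl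

omit [Finite V] in
theorem quoW_mk {W : Subgroup V} (hW : Inv A W) (a : ↥A) (v : V) :
    quoW hW a (QuotientGroup.mk v) = QuotientGroup.mk (a.1 v) := rfl

/-- transfer of orbit sizes along a map that is injective on the orbit -/
theorem card_orbit_eq_of_map {G H X Y : Type*} [Group G] [Group H] [MulAction G X]
    [MulAction H Y] (x : X) (y : Y) (f : X → Y) (h1 : ∀ g : G, ∃ h : H, f (g • x) = h • y)
    (h2 : ∀ h : H, ∃ g : G, f (g • x) = h • y) (hinj : Set.InjOn f (MulAction.orbit G x)) :
    Nat.card (MulAction.orbit H y) = Nat.card (MulAction.orbit G x) := by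
  have e : f '' (MulAction.orbit G x) = MulAction.orbit H y := by
    ext z
    constructor
    · rintro ⟨_, ⟨g, rfl⟩, rfl⟩
      obtain ⟨h, hh⟩ := h1 g
      exact ⟨h, hh.symm⟩
    · rintro ⟨h, rfl⟩
      obtain ⟨g, hg⟩ := h2 h
      exact ⟨g • x, ⟨g, rfl⟩, hg⟩
  rw [← e]
  exact Nat.card_image_of_injOn hinj

/-- the hypotheses of Lemma T pass to the restriction to an invariant subgroup -/
theorem th_res (h : TH p q V A) {W : Subgroup V} (hW : Inv A W) :
    TH p q ↥W (resW hW).range where
  hp := h.hp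
  hq := h.hq
  hV := h.hV.to_subgroup W
  hA := Nat.Coprime.coprime_dvd_left (Subgroup.card_range_dvd (resW hW)) h.hA
  horb := fun w => by
    obtain ⟨a, ha⟩ := h.horb (w : V)
    refine ⟨a, ?_⟩
    rw [← ha]
    symm
    apply card_orbit_eq_of_map (G := ↥(resW hW).range) (H := ↥A) w (w : V) Subtype.val
    · rintro ⟨_, ⟨a, rfl⟩⟩
      exact ⟨a, rfl⟩
    · intro a
      exact ⟨⟨resW hW a, ⟨a, rfl⟩⟩, rfl⟩
    · exact Subtype.val_injective.injOn

/-- every coset of `W` contains an element with the same stabiliser in `A` -/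
theorem exists_rep_fixed (h : TH p q V A) {W : Subgroup V} (hW : Inv A W) (hcard : 1 < Nat.card V)
    (v : V) : ∃ v' : V, (QuotientGroup.mk v' : V ⧸ W) = QuotientGroup.mk v ∧
      ∀ c : ↥A, quoW hW c (QuotientGroup.mk v) = QuotientGroup.mk v → c.1 v' = v' := by
  classical
  let S : Subgroup ↥A :=
    { carrier := {c | quoW hW c (QuotientGroup.mk v) = QuotientGroup.mk v}
      one_mem' := by
        show quoW hW 1 (QuotientGroup.mk v) = QuotientGroup.mk v
        rw [map_one]
        rfl
      mul_mem' := fun {a b} ha hb => by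
        show quoW hW (a * b) (QuotientGroup.mk v) = QuotientGroup.mk v
        rw [map_mul, MulAut.mul_apply]
        have ha' : quoW hW a (QuotientGroup.mk v) = QuotientGroup.mk v := ha
        have hb' : quoW hW b (QuotientGroup.mk v) = QuotientGroup.mk v := hb
        rw [hb', ha']
      inv_mem' := fun {a} ha => by
        show quoW hW a⁻¹ (QuotientGroup.mk v) = QuotientGroup.mk v
        have ha' : quoW hW a (QuotientGroup.mk v) = QuotientGroup.mk v := ha
        rw [map_inv]
        nth_rewrite 1 [← ha']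
        exact MulAut.inv_apply_self _ _ _ }
  haveI : Fintype ↥S := Fintype.ofFinite _
  -- the order of `S` is prime to the order of `V`
  have hq := h.hq
  haveI : Fact q.Prime := ⟨hq⟩
  obtain ⟨n, hn⟩ := (IsPGroup.iff_card (p := q) (G := V)).mp h.hV
  have hSA : Nat.card ↥S ∣ Nat.card ↥A := Subgroup.card_subgroup_dvd_card S
  have hco : (Nat.card ↥S).Coprime (Nat.card V) := by
    rw [hn]
    exact Nat.Coprime.pow_right n (Nat.Coprime.coprime_dvd_left hSA h.hA)
  obtain ⟨m, -, hm⟩ := Nat.exists_mul_mod_eq_one_of_coprime hco hcard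
  let v2 : V := ∏ s : ↥S, (s.1.1 : MulAut V) v
  have hv2 : ∀ t : ↥S, t.1.1 v2 = v2 := by
    intro t
    show t.1.1 (∏ s : ↥S, (s.1.1 : MulAut V) v) = ∏ s : ↥S, (s.1.1 : MulAut V) v
    rw [map_prod]
    exact Fintype.prod_equiv (Equiv.mulLeft t) _ _ (fun s => rfl)
  have hmk2 : (QuotientGroup.mk v2 : V ⧸ W) = (QuotientGroup.mk v) ^ Nat.card ↥S := by
    show (QuotientGroup.mk' W) (∏ s : ↥S, (s.1.1 : MulAut V) v) = _
    rw [map_prod]
    have : ∀ s ∈ (Finset.univ : Finset ↥S), (QuotientGroup.mk' W) ((s.1.1 : MulAut V) v)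
        = (QuotientGroup.mk v : V ⧸ W) := by
      intro s _
      exact s.2
    rw [Finset.prod_congr rfl this, Finset.prod_const, Finset.card_univ,
      Nat.card_eq_fintype_card]
  refine ⟨v2 ^ m, ?_, ?_⟩
  · rw [QuotientGroup.mk_pow, hmk2, ← pow_mul, ← QuotientGroup.mk_pow, ← pow_mod_natCard, hm,
      pow_one]
  · intro c hc
    have := hv2 ⟨c, hc⟩
    rw [map_pow]
    exact congrArg (· ^ m) this

/-- the hypotheses of Lemma T pass to the quotient by an invariant subgroup -/
theorem th_quo (h : TH p q V A) {W : Subgroup V} (hW : Inv A W) (hcard : 1 < Nat.card V) :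
    TH p q (V ⧸ W) (quoW hW).range where
  hp := h.hp
  hq := h.hq
  hV := h.hV.to_quotient W
  hA := Nat.Coprime.coprime_dvd_left (Subgroup.card_range_dvd (quoW hW)) h.hA
  horb := fun x => by
    induction x using QuotientGroup.induction_on with
    | H v =>
      obtain ⟨v', hv', hfix⟩ := exists_rep_fixed h hW hcard v
      obtain ⟨a, ha⟩ := h.horb v'
      refine ⟨a, ?_⟩
      rw [← ha]
      apply card_orbit_eq_of_map (G := ↥A) (H := ↥(quoW hW).range) v' (QuotientGroup.mk v)
        (QuotientGroup.mk : V → V ⧸ W)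
      · intro a
        refine ⟨⟨quoW hW a, ⟨a, rfl⟩⟩, ?_⟩
        show (QuotientGroup.mk (a.1 v') : V ⧸ W) = quoW hW a (QuotientGroup.mk v)
        rw [← hv']
        rfl
      · rintro ⟨_, ⟨a, rfl⟩⟩
        refine ⟨a, ?_⟩
        show (QuotientGroup.mk (a.1 v') : V ⧸ W) = quoW hW a (QuotientGroup.mk v)
        rw [← hv']
        rfl
      · rintro _ ⟨a, rfl⟩ _ ⟨b, rfl⟩ hab
        have hab' : (QuotientGroup.mk (a.1 v') : V ⧸ W) = QuotientGroup.mk (b.1 v') := hab
        have hc : quoW hW (b⁻¹ * a) (QuotientGroup.mk v) = QuotientGroup.mk v := by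
          rw [← hv', quoW_mk]
          have e1 : (b⁻¹ * a).1 v' = b.1⁻¹ (a.1 v') := rfl
          rw [e1]
          have e2 : (QuotientGroup.mk (b.1⁻¹ (a.1 v')) : V ⧸ W)
              = quoW hW b⁻¹ (QuotientGroup.mk (a.1 v')) := rfl
          rw [e2, hab']
          show (QuotientGroup.mk (b.1⁻¹ (b.1 v')) : V ⧸ W) = QuotientGroup.mk v'
          rw [MulAut.inv_apply_self]
        have hfx := hfix (b⁻¹ * a) hc
        have e1 : (b⁻¹ * a).1 v' = b.1⁻¹ (a.1 v') := rfl
        rw [e1] at hfx
        show a.1 v' = b.1 v'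
        have := congrArg (fun u => b.1 u) hfx
        simpa using this

/-- an element of `A` acting trivially on `W` and on `V ⧸ W` is trivial -/
theorem eq_one_of_res_quo (h : TH p q V A) {W : Subgroup V} (hW : Inv A W) (a : ↥A)
    (hr : resW hW a = 1) (hq' : quoW hW a = 1) : a = 1 := by
  have hfixW : ∀ w ∈ W, a.1 w = w := by
    intro w hw
    have := congrArg (fun e : MulAut ↥W => ((e ⟨w, hw⟩ : ↥W) : V)) hr
    exact this
  have hmem : ∀ v : V, v⁻¹ * a.1 v ∈ W := by
    intro v
    have h1 : quoW hW a (QuotientGroup.mk v) = QuotientGroup.mk v := by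
      rw [hq']
      rfl
    rw [quoW_mk] at h1
    exact QuotientGroup.eq.mp h1.symm
  have hpow : ∀ (k : ℕ) (v : V), (a.1 ^ k) v = v * (v⁻¹ * a.1 v) ^ k := by
    intro k
    induction k with
    | zero =>
      intro v
      simp
    | succ k ih =>
      intro v
      rw [pow_succ', MulAut.mul_apply, ih, map_mul, map_pow, hfixW _ (hmem v), pow_succ]
      have : a.1 v = v * (v⁻¹ * a.1 v) := by rw [mul_inv_cancel_left]
      nth_rewrite 1 [this]
      rw [mul_assoc, mul_comm ((v⁻¹ * a.1 v) ^ k)]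
  have hW1 : a.1 ^ Nat.card ↥W = 1 := by
    ext v
    rw [hpow]
    have : (⟨v⁻¹ * a.1 v, hmem v⟩ : ↥W) ^ Nat.card ↥W = 1 := pow_card_eq_one'
    have h2 := congrArg (Subtype.val) this
    rw [Subgroup.coe_pow] at h2
    rw [h2]
    simp
  have ho1 : orderOf a.1 ∣ Nat.card ↥W := orderOf_dvd_of_pow_eq_one hW1
  have ho2 : orderOf a ∣ Nat.card ↥A := orderOf_dvd_natCard a
  rw [← Subgroup.orderOf_coe] at ho2
  have hq := h.hq
  haveI : Fact q.Prime := ⟨hq⟩
  obtain ⟨n, hn⟩ := (IsPGroup.iff_card (p := q) (G := ↥W)).mp (h.hV.to_subgroup W)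
  rw [hn] at ho1
  have hco : (orderOf a.1).Coprime (q ^ n) :=
    Nat.Coprime.pow_right n (Nat.Coprime.coprime_dvd_left ho2 h.hA)
  have h1 : orderOf a.1 = 1 := Nat.Coprime.eq_one_of_dvd hco ho1
  exact Subtype.ext (orderOf_eq_one_iff.mp h1)

/-- **T4** (reducible case of Lemma T). -/
theorem solvable_of_inv (h : TH p q V A) (W : Subgroup V) (hW : Inv A W) (h0 : W ≠ ⊥)
    (h1 : W ≠ ⊤)
    (IH : ∀ (V' : Type u) [CommGroup V'] [Finite V'] (A' : Subgroup (MulAut V')),
      Nat.card V' < Nat.card V → TH p q V' A' → Group.IsSolvable A') : Group.IsSolvable A := by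
  have hWcard : 1 < Nat.card ↥W := (Subgroup.one_lt_card_iff_ne_bot W).mpr h0
  have hWle : Nat.card ↥W ≤ Nat.card V := Subgroup.card_le_card_group W
  have hWlt : Nat.card ↥W < Nat.card V :=
    lt_of_le_of_ne hWle (fun he => h1 (Subgroup.eq_top_of_card_eq W he))
  have hmul := Subgroup.card_eq_card_quotient_mul_card_subgroup W
  have hQpos : 0 < Nat.card (V ⧸ W) := Nat.card_pos
  have hQlt : Nat.card (V ⧸ W) < Nat.card V := by
    rw [hmul]
    nlinarith
  have hcard : 1 < Nat.card V := lt_of_lt_of_le hWcard hWle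
  haveI s1 : Group.IsSolvable ↥(resW hW).range := IH ↥W (resW hW).range hWlt (th_res h hW)
  haveI s2 : Group.IsSolvable ↥(quoW hW).range :=
    IH (V ⧸ W) (quoW hW).range hQlt (th_quo h hW hcard)
  let f : ↥A →* ↥(resW hW).range × ↥(quoW hW).range :=
    (resW hW).rangeRestrict.prod (quoW hW).rangeRestrict
  have hf : Function.Injective f := by
    rw [injective_iff_map_eq_one]
    intro a ha
    have ha1 : (resW hW).rangeRestrict a = 1 := congrArg Prod.fst ha
    have ha2 : (quoW hW).rangeRestrict a = 1 := congrArg Prod.snd ha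
    exact eq_one_of_res_quo h hW a (congrArg Subtype.val ha1) (congrArg Subtype.val ha2)
  exact Group.isSolvable_of_isSolvable_injective hf

end Cfsg.Agent.H93.Baer
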