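import Cfsg.Agent.H23.IcDefs

/-!
# IC-BASIC (team project IC = S5751, helper23): elementary facts about `n_j`, `P_J`, `U` in `E8(2)`
-/

set_option autoImplicit false

namespace Cfsg.Agent.H93.Ic

open Cfsg.Lie Cfsg.Agent.H23 Cfsg.Agent.H23.Ic

theorem simple_lt_nroots (j : ℕ) (hj : j < 8) : chevE8.simple j < chevE8.nroots := by
  interval_cases j <;> decide

theorem basic : Cfsg.Agent.H23.Ic.StBasic := by
  refine ⟨?_, ?_, ?_, ?_, ?_⟩
  · intro j hj
    show nU hS (chevE8.simple j) 1 * nU hS (chevE8.simple j) 1 = 1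
    rw [nU_mul_self hS (chevE8.simple j)]
    have h1 : (-1 : ZMod 2) = 1 := by decide
    rw [h1, inv_eq_one]
    apply Units.ext
    rw [hU_val]
    exact hMat_one hS (chevE8.simple j) (simple_lt_nroots j hj)
  · intro j hj hj3
    show nU hS (chevE8.simple j) 1 ∈ chevE8.parabolicSubgroup (ZMod 2) JJ
    rw [parabolicSubgroup_eq]
    exact (le_sup_right : nGenJ chevE8 (ZMod 2) JJ ≤ _) (nU_mem_nGenJ hS JJ j hj hj3)
  · intro j _
    exact wordU_mem_group hS _
  · show chevE8.parabolicSubgroup (ZMod 2) JJ ≤ chevE8.group (ZMod 2)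
    rw [parabolicSubgroup_eq]
    apply sup_le (borel_le_group hS)
    unfold nGenJ
    rw [Subgroup.closure_le]
    rintro g ⟨j, _, _, hg⟩
    have hgw : g = wordU hS (chevE8.nWord (chevE8.simple j) 1) := eq_wordU hS g _ hg
    rw [hgw]
    exact wordU_mem_group hS _
  · show chevE8.posUnipotent (ZMod 2) ≤ chevE8.parabolicSubgroup (ZMod 2) JJ
    rw [parabolicSubgroup_eq]
    exact (le_sup_left : chevE8.posUnipotent (ZMod 2) ≤ chevE8.borelSubgroup (ZMod 2)).trans
      le_sup_left

example : Cfsg.Agent.H23.Ic.StBasic := basic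

end Cfsg.Agent.H93.Ic

#print axioms Cfsg.Agent.H93.Ic.basic
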