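import Cfsg.Agent.H23.IcDefs

/-!
# IC-FILTP (team project IC = S5751, helper23): `P_J` preserves the level filtration

Groundwork shared with IC-LEVI: `U_J ≤ raisGroup (wt levC)`, `L_J ≤ presGroup (wt levC)`
(as in the proof of `unipotentRadical_inf_levi`, with `lvlJ chevE8 ctblE8 omE8 JJ = wN levC`).
-/

set_option autoImplicit false

namespace Cfsg.Agent.H93.Ic

open Cfsg.Lie Cfsg.Agent.H23 Cfsg.Agent.H23.Ic

/-- The `J`-level for `J` = all nodes but the branch node is the level `wN levC`. -/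
theorem lvlJ_JJ (c : ℕ) : lvlJ chevE8 ctblE8 omE8 JJ c = wN levC c := by
  unfold lvlJ wN
  have hr : chevE8.rank = 8 := rfl
  rw [hr, Finset.sum_eq_single 3]
  · rw [if_neg (by intro h; exact h rfl)]
    rfl
  · intro i _ hi
    rw [if_pos (show i ∈ JJ from hi)]
  · intro h
    exact absurd (Finset.mem_range.mpr (by norm_num)) h

theorem lvlJ_fun : (fun k => lvlJ chevE8 ctblE8 omE8 JJ (ix chevE8 k)) = wt levC := by
  funext k
  exact lvlJ_JJ _

theorem h1E8 : ∀ j < chevE8.rank, (chevE8.coroot.getD (chevE8.simple j) #[]).getD j 0 ≠ 0 :=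
  fun j hj => by
    rw [tabH_E8.simple_one j hj]; exact one_ne_zero

/-- `U_J` strictly raises the level. -/
theorem uJ_le_rais : chevE8.unipotentRadical (ZMod 2) JJ ≤ raisGroup (ZMod 2) (wt levC) := by
  have hw := lvlJ_adm chk_E8 omE8 JJ
  rw [← lvlJ_fun, unipotentRadical_eq]
  apply rootGen_le hS
  intro r hr t
  have hpos := lvlJ_pos tabOm_E8 JJ r hr.1 hr.2
  refine ⟨?_, ?_⟩
  · rw [xU_val]; exact x_raisZ _ hw r hr.1.1 hpos t
  · rw [xU_inv, xU_val]; exact x_raisZ _ hw r hr.1.1 hpos (-t)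

/-- `L_J` preserves the level. -/
theorem lJ_le_pres : chevE8.leviSubgroup (ZMod 2) JJ ≤ presGroup (ZMod 2) (wt levC) := by
  have hw := lvlJ_adm chk_E8 omE8 JJ
  have hT := hPk.tab
  rw [← lvlJ_fun, leviSubgroup_eq]
  apply sup_le
  · have key : ∀ h ∈ chevE8.diagonalSubgroup (ZMod 2),
        PresZ (fun k => lvlJ chevE8 ctblE8 omE8 JJ (ix chevE8 k))
          (h : Matrix chevE8.Idx chevE8.Idx (ZMod 2)) := by
      intro h hh
      obtain ⟨χ, hχ⟩ := diagonal_le_torus hS hT hh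
      rw [hχ.2.2.2]
      intro i j hij
      by_cases e : i = j
      · rw [e]
      · exact absurd (Matrix.diagonal_apply_ne _ e) hij
    intro h hh
    exact ⟨key h hh, key h⁻¹ (Subgroup.inv_mem _ hh)⟩
  · apply rootGen_le hS
    intro r hr t
    have h0 := lvlJ_zero tabOm_E8 JJ r hr
    refine ⟨?_, ?_⟩
    · rw [xU_val]; exact x_presZ _ hw r hr.1 h0 t
    · rw [xU_inv, xU_val]; exact x_presZ _ hw r hr.1 h0 (-t)

theorem rais_le_filt (w : chevE8.Idx → ℤ) : raisGroup (ZMod 2) w ≤ filtGroup w := by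
  have key : ∀ M : Matrix chevE8.Idx chevE8.Idx (ZMod 2), RaisZ w (M - 1) → Fil w M := by
    intro M hM i j hij
    by_cases e : i = j
    · rw [e]
    · have h : (M - 1) i j ≠ 0 := by
        rw [Matrix.sub_apply, Matrix.one_apply_ne e, sub_zero]; exact hij
      exact le_of_lt (hM i j h)
  rintro g ⟨h1, h2⟩
  exact ⟨key _ h1, key _ h2⟩

theorem pres_le_filt (w : chevE8.Idx → ℤ) : presGroup (ZMod 2) w ≤ filtGroup w := by
  rintro g ⟨h1, h2⟩
  exact ⟨fun i j hij => le_of_eq (h1 i j hij).symm, fun i j hij => le_of_eq (h2 i j hij).symm⟩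

theorem filtP : Cfsg.Agent.H23.Ic.StFiltP := by
  show chevE8.parabolicSubgroup (ZMod 2) JJ ≤ filtGroup (wt levC)
  rw [← unipotentRadical_sup_levi hPk h1E8 JJ]
  exact sup_le (uJ_le_rais.trans (rais_le_filt _)) (lJ_le_pres.trans (pres_le_filt _))

example : Cfsg.Agent.H23.Ic.StFiltP := filtP

end Cfsg.Agent.H93.Ic

#print axioms Cfsg.Agent.H93.Ic.filtP
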