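import Cfsg.Agent.H93.IcFiltP

/-!
# IC-LEVI (team project IC = S5751, helper23): the Levi decomposition of `P_J` in graded form
-/

set_option autoImplicit false

namespace Cfsg.Agent.H93.Ic

open Cfsg.Lie Cfsg.Agent.H23 Cfsg.Agent.H23.Ic

theorem levi : Cfsg.Agent.H23.Ic.StLevi := by
  intro u hu
  have hu' : u ∈ chevE8.unipotentRadical (ZMod 2) JJ ⊔ chevE8.leviSubgroup (ZMod 2) JJ := by
    rw [unipotentRadical_sup_levi hPk h1E8 JJ]; exact hu
  have hN : chevE8.leviSubgroup (ZMod 2) JJ ≤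
      Subgroup.normalizer (chevE8.unipotentRadical (ZMod 2) JJ : Set GLE) := by
    refine le_trans ?_ (parabolic_le_normalizer hPk h1E8 JJ)
    rw [← unipotentRadical_sup_levi hPk h1E8 JJ]; exact le_sup_right
  obtain ⟨v, hv, l, hl, e⟩ := exists_mul_of_mem_sup _ _ hN u hu'
  refine ⟨v, uJ_le_rais hv, l, lJ_le_pres hl, ?_, ?_, e⟩
  · have h : chevE8.unipotentRadical (ZMod 2) JJ ≤ chevE8.posUnipotent (ZMod 2) := by
      rw [unipotentRadical_eq, posUnipotent_eq]
      exact rootGen_mono hS _ _ (fun r hr => hr.1)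
    exact h hv
  · have h : chevE8.leviSubgroup (ZMod 2) JJ ≤ chevE8.group (ZMod 2) := by
      rw [leviSubgroup_eq]
      apply sup_le (diagonal_le_group hS)
      apply rootGen_le hS
      intro r _ t
      exact xU_mem_group hS r t
    exact h hl

example : Cfsg.Agent.H23.Ic.StLevi := levi

end Cfsg.Agent.H93.Ic

#print axioms Cfsg.Agent.H93.Ic.levi
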