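import Cfsg.Agent.H93.PermMod
import Cfsg.Agent.H94.EltCls
import Cfsg.Agent.H94.Mult23
import Cfsg.Agent.H94.OutFront

/-!
# Non-generation of `M₂₃` by triples of small orders (helper93)

`m23_no_gen`: elements `x, y` of `M₂₃` of prime orders `p, q` with `x * y` of prime order `r` do not
generate `M₂₃` when `(p, q, r)` is `(2, 3, r)`, `(2, 5, 5)`, `(2, 5, 7)` or `(3, 3, r)` with
`r ≤ 7` (Ree--Scott inequality on the 24 points, on which `M₂₃` has two orbits).
-/

set_option autoImplicit false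
set_option linter.style.haveILetI false

namespace Cfsg.Agent.H93

open Cfsg Cfsg.Agent.H9 Cfsg.Agent.H33 Cfsg.Agent.H94 Module

theorem tE_pow_some (k : ℕ) (i : ZMod 23) : (tE ^ k) (some i) = some (i + (k : ZMod 23)) := by
  induction k generalizing i with
  | zero => simp
  | succ k ih =>
    rw [pow_succ, Equiv.Perm.mul_apply]
    have h1 : tE (some i) = some (i + 1) := rfl
    rw [h1, ih]
    congr 1
    push_cast
    ring

theorem tE_mem_M23 : tE ∈ Spor.M23 := ⟨tE_mem, rfl⟩

theorem m23_trans (a : GolayPt) (ha : a ≠ none) : ∃ g ∈ Spor.M23, g (some 0) = a := by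
  cases a with
  | none => exact absurd rfl ha
  | some j =>
    refine ⟨tE ^ j.val, pow_mem tE_mem_M23 _, ?_⟩
    rw [tE_pow_some, zero_add, ZMod.natCast_zmod_val]

theorem m23_htr {x y : ↥Spor.M23} (hgen : Subgroup.closure ({x, y} : Set ↥Spor.M23) = ⊤)
    (a : GolayPt) (ha : a ≠ none) :
    ∃ g ∈ Subgroup.closure ({(x : Equiv.Perm GolayPt), (y : Equiv.Perm GolayPt)} :
      Set (Equiv.Perm GolayPt)), g (some 0) = a := by
  obtain ⟨g, hg, hga⟩ := m23_trans a ha
  refine ⟨g, ?_, hga⟩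
  have h1 : (⟨g, hg⟩ : ↥Spor.M23) ∈ Subgroup.closure ({x, y} : Set ↥Spor.M23) := by
    rw [hgen]
    exact Subgroup.mem_top _
  have h2 : g ∈ (Subgroup.closure ({x, y} : Set ↥Spor.M23)).map Spor.M23.subtype :=
    ⟨⟨g, hg⟩, h1, rfl⟩
  rw [MonoidHom.map_closure, Set.image_pair] at h2
  exact h2

theorem card_golayPt : Fintype.card GolayPt = 24 := by
  unfold GolayPt
  rw [Fintype.card_option, ZMod.card]

/-- lower bounds for the number of cycles on the 24 points of an element of prime order -/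
theorem cyc_bound {σ : Equiv.Perm GolayPt} (hσ : σ ∈ Spor.M23) {p : ℕ} (hp : p.Prime)
    (ho : orderOf σ = p) :
    (p = 2 → 16 ≤ finrank ℚ (pmFix σ)) ∧ (p = 3 → 12 ≤ finrank ℚ (pmFix σ)) ∧
    (p = 5 → 8 ≤ finrank ℚ (pmFix σ)) ∧ (p = 7 → 6 ≤ finrank ℚ (pmFix σ)) ∧
    1 ≤ finrank ℚ (pmFix σ) := by
  have h1 := card_orbits_le_finrank σ
  have h2 := orbits_mul_prime σ hp ho
  rw [card_golayPt] at h2
  have hM : σ ∈ M24 := hσ.1
  have hfix : σ none = none := hσ.2
  have hpos : 0 < (Finset.univ.filter fun a => σ a = a).card :=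
    Finset.card_pos.mpr ⟨none, Finset.mem_filter.mpr ⟨Finset.mem_univ _, hfix⟩⟩
  refine ⟨?_, ?_, ?_, ?_, ?_⟩
  · rintro rfl
    have hF : (Finset.univ.filter fun a => σ a = a).card = 8 := by
      rcases invol_facts hM ho with h | h
      · exact h.1
      · have := h.1
        omega
    rw [hF] at h2
    omega
  · rintro rfl
    have hF : (Finset.univ.filter fun a => σ a = a).card = 6 := by
      rcases ord3_facts hM ho with h | h
      · exact h.1
      · have := h.1
        omega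
    rw [hF] at h2
    omega
  · rintro rfl
    omega
  · rintro rfl
    omega
  · have : Nat.card (Quotient (MulAction.orbitRel (Subgroup.zpowers σ) GolayPt)) ≠ 0 := by
      intro h0
      rw [h0, zero_mul] at h2
      omega
    omega

/-- the excluded triples do not generate `M₂₃` -/
theorem m23_no_gen {p q r : ℕ} (hp : p.Prime) (hq : q.Prime) (hr : r.Prime) (hqr : q ≤ r)
    {x y z : ↥Spor.M23} (hx : orderOf x = p) (hy : orderOf y = q) (hz : orderOf z = r)
    (hxyz : x * y * z = 1) (hgen : Subgroup.closure ({x, y} : Set ↥Spor.M23) = ⊤)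
    (hex : (p = 2 ∧ q = 3) ∨ (p = 2 ∧ q = 5 ∧ r = 5) ∨ (p = 2 ∧ q = 5 ∧ r = 7) ∨
      (p = 3 ∧ q = 3 ∧ r ≤ 7)) : False := by
  have hs := scott_perm (x := (x : Equiv.Perm GolayPt)) (y := (y : Equiv.Perm GolayPt))
    (some 0) none (m23_htr hgen)
  rw [card_golayPt] at hs
  have hxy : orderOf (x * y) = r := by
    have e : x * y = z⁻¹ := eq_inv_of_mul_eq_one_left hxyz
    rw [e, orderOf_inv, hz]
  have ox : orderOf (x : Equiv.Perm GolayPt) = p := by rw [Subgroup.orderOf_coe, hx]
  have oy : orderOf (y : Equiv.Perm GolayPt) = q := by rw [Subgroup.orderOf_coe, hy]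
  have oz : orderOf ((x : Equiv.Perm GolayPt) * (y : Equiv.Perm GolayPt)) = r := by
    rw [← Subgroup.coe_mul, Subgroup.orderOf_coe, hxy]
  obtain ⟨x2, x3, x5, x7, x1⟩ := cyc_bound x.2 hp ox
  obtain ⟨y2, y3, y5, y7, y1⟩ := cyc_bound y.2 hq oy
  obtain ⟨z2, z3, z5, z7, z1⟩ := cyc_bound (mul_mem x.2 y.2) hr oz
  rcases hex with ⟨rfl, rfl⟩ | ⟨rfl, rfl, rfl⟩ | ⟨rfl, rfl, rfl⟩ | ⟨rfl, rfl, hr7⟩
  · have := x2 rfl
    have := y3 rfl
    omega
  · have := x2 rfl
    have := y5 rfl
    have := z5 rfl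
    omega
  · have := x2 rfl
    have := y5 rfl
    have := z7 rfl
    omega
  · have := x3 rfl
    have := y3 rfl
    have hr3 : r = 3 ∨ r = 5 ∨ r = 7 := by
      interval_cases r
      · exact Or.inl rfl
      · exact absurd hr (by norm_num)
      · exact Or.inr (Or.inl rfl)
      · exact absurd hr (by norm_num)
      · exact Or.inr (Or.inr rfl)
    rcases hr3 with rfl | rfl | rfl
    · have := z3 rfl
      omega
    · have := z5 rfl
      omega
    · have := z7 rfl
      omega

end Cfsg.Agent.H93
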