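import Mathlib

/-!
# Scott's inequality for two linear maps (helper93)

For endomorphisms `A`, `B` of a finite-dimensional space `V`:
`dim Fix A + dim Fix B + dim Fix (B ∘ A) + dim ([V, A] + [V, B]) ≤ 2 dim V + dim (Fix A ∩ Fix B)`.
-/

set_option autoImplicit false

namespace Cfsg.Agent.H93

open Module LinearMap

theorem scott_ineq {K V : Type*} [Field K] [AddCommGroup V] [Module K V] [FiniteDimensional K V]
    (A B : V →ₗ[K] V) :
    finrank K (ker (A - LinearMap.id)) + finrank K (ker (B - LinearMap.id))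
        + finrank K (ker (B ∘ₗ A - LinearMap.id))
        + finrank K ↥(range (A - LinearMap.id) ⊔ range (B - LinearMap.id))
      ≤ 2 * finrank K V + finrank K ↥(ker (A - LinearMap.id) ⊓ ker (B - LinearMap.id)) := by
  -- the restriction of `A - 1` to `U = Fix (B ∘ A)`
  have h1 := LinearMap.finrank_range_add_finrank_ker
    ((A - LinearMap.id) ∘ₗ (ker (B ∘ₗ A - LinearMap.id)).subtype)
  have hr : range ((A - LinearMap.id) ∘ₗ (ker (B ∘ₗ A - LinearMap.id)).subtype)
      ≤ range (A - LinearMap.id) ⊓ range (B - LinearMap.id) := by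
    rintro _ ⟨⟨v, hv⟩, rfl⟩
    have hv' : B (A v) = v := by
      have := LinearMap.mem_ker.mp hv
      simpa [sub_eq_zero] using this
    refine ⟨⟨v, rfl⟩, ⟨-(A v), ?_⟩⟩
    simp only [LinearMap.sub_apply, LinearMap.id_apply, map_neg, hv', LinearMap.comp_apply,
      Submodule.subtype_apply]
    abel
  have hk : (ker ((A - LinearMap.id) ∘ₗ (ker (B ∘ₗ A - LinearMap.id)).subtype)).map
      (ker (B ∘ₗ A - LinearMap.id)).subtype ≤ ker (A - LinearMap.id) ⊓ ker (B - LinearMap.id) := by
    rintro _ ⟨⟨v, hv⟩, hvk, rfl⟩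
    have hv' : B (A v) = v := by
      have := LinearMap.mem_ker.mp hv
      simpa [sub_eq_zero] using this
    have hA : A v = v := by
      have := LinearMap.mem_ker.mp hvk
      simpa [sub_eq_zero] using this
    refine ⟨?_, ?_⟩
    · simp [hA]
    · rw [hA] at hv'
      simp [hv']
  have h2 := Submodule.finrank_mono hr
  have h3 : finrank K (ker ((A - LinearMap.id) ∘ₗ (ker (B ∘ₗ A - LinearMap.id)).subtype))
      ≤ finrank K ↥(ker (A - LinearMap.id) ⊓ ker (B - LinearMap.id)) := by
    have e := (Submodule.equivMapOfInjective (ker (B ∘ₗ A - LinearMap.id)).subtype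
      (ker (B ∘ₗ A - LinearMap.id)).injective_subtype
      (ker ((A - LinearMap.id) ∘ₗ (ker (B ∘ₗ A - LinearMap.id)).subtype))).finrank_eq
    rw [e]
    exact Submodule.finrank_mono hk
  have h4 := Submodule.finrank_sup_add_finrank_inf_eq (range (A - LinearMap.id))
    (range (B - LinearMap.id))
  have h5 := LinearMap.finrank_range_add_finrank_ker (A - LinearMap.id)
  have h6 := LinearMap.finrank_range_add_finrank_ker (B - LinearMap.id)
  omega

end Cfsg.Agent.H93
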