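import Mathlib
import Cfsg.Agent.H93.Scott

/-!
# The permutation module and the Ree--Scott inequality (helper93)

* `pmFix σ`: the space of rational functions on `α` fixed by the permutation `σ`.
* `card_orbits_le_finrank`: the number of cycles of `σ` is at most its dimension.
* `orbits_mul_prime`: the number of cycles of a permutation of prime order `p` with `F` fixed
  points: `c * p = n + (p - 1) * F` (Burnside's lemma).
* `scott_perm`: if `⟨x, y⟩` is transitive on the points other than `b0`, then
  `dim Fix x + dim Fix y + dim Fix (x * y) ≤ n + 4`.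
-/

set_option autoImplicit false

namespace Cfsg.Agent.H93

open Module LinearMap

set_option linter.unusedSectionVars false
set_option linter.style.haveILetI false
set_option linter.unusedSimpArgs false

variable {α : Type*} [Fintype α] [DecidableEq α]

/-- the space of functions fixed by a permutation -/
noncomputable def pmFix (σ : Equiv.Perm α) : Submodule ℚ (α → ℚ) :=
  ker (LinearMap.funLeft ℚ ℚ σ - LinearMap.id)

theorem mem_pmFix {σ : Equiv.Perm α} {f : α → ℚ} : f ∈ pmFix σ ↔ ∀ a, f (σ a) = f a := by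
  unfold pmFix
  rw [LinearMap.mem_ker, LinearMap.sub_apply, LinearMap.id_apply, sub_eq_zero]
  constructor
  · intro h a
    exact congrFun h a
  · intro h
    funext a
    exact h a

theorem pmFix_closure {x y : Equiv.Perm α} {f : α → ℚ} (hx : f ∈ pmFix x) (hy : f ∈ pmFix y)
    {g : Equiv.Perm α} (hg : g ∈ Subgroup.closure ({x, y} : Set (Equiv.Perm α))) (a : α) :
    f (g a) = f a := by
  induction hg using Subgroup.closure_induction generalizing a with
  | mem g hg =>
    rcases hg with rfl | hg
    · exact mem_pmFix.mp hx a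
    · rw [Set.mem_singleton_iff] at hg
      rw [hg]
      exact mem_pmFix.mp hy a
  | one => rfl
  | mul g h _ _ ihg ihh => rw [Equiv.Perm.mul_apply, ihg, ihh]
  | inv g _ ih =>
    have := ih (g⁻¹ a)
    have e : g (g⁻¹ a) = a := by simp
    rw [e] at this
    exact this.symm

/-- the number of cycles is at most the dimension of the fixed space -/
theorem card_orbits_le_finrank (σ : Equiv.Perm α) :
    Nat.card (Quotient (MulAction.orbitRel (Subgroup.zpowers σ) α)) ≤ finrank ℚ (pmFix σ) := by
  classical
  haveI : Fintype (Quotient (MulAction.orbitRel (Subgroup.zpowers σ) α)) := Fintype.ofFinite _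
  have hinj : Function.Injective (LinearMap.funLeft ℚ ℚ
      (Quotient.mk (MulAction.orbitRel (Subgroup.zpowers σ) α))) :=
    LinearMap.funLeft_injective_of_surjective ℚ ℚ _ Quotient.mk_surjective
  have h1 := LinearMap.finrank_range_of_inj hinj
  rw [Module.finrank_fintype_fun_eq_card] at h1
  have h2 : range (LinearMap.funLeft ℚ ℚ
      (Quotient.mk (MulAction.orbitRel (Subgroup.zpowers σ) α))) ≤ pmFix σ := by
    rintro _ ⟨h, rfl⟩
    rw [mem_pmFix]
    intro a
    show h (Quotient.mk _ (σ a)) = h (Quotient.mk _ a)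
    congr 1
    apply Quotient.sound
    exact ⟨⟨σ, Subgroup.mem_zpowers σ⟩, rfl⟩
  have h3 := Submodule.finrank_mono h2
  rw [h1] at h3
  rw [Nat.card_eq_fintype_card]
  exact h3

theorem fixed_zpowers_iff {σ : Equiv.Perm α} {p : ℕ} (hp : p.Prime) (hσ : orderOf σ = p)
    {τ : Equiv.Perm α} (hτ : τ ∈ Subgroup.zpowers σ) (h1 : τ ≠ 1) (a : α) :
    τ a = a ↔ σ a = a := by
  obtain ⟨k, rfl⟩ := Subgroup.mem_zpowers_iff.mp hτ
  constructor
  · intro h
    have hle : Subgroup.zpowers (σ ^ k) ≤ Subgroup.zpowers σ := Subgroup.zpowers_le.mpr hτ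
    have hord : orderOf (σ ^ k) = p := by
      have hd : orderOf (σ ^ k) ∣ p := by
        apply orderOf_dvd_of_pow_eq_one
        rw [← zpow_natCast, ← zpow_mul, mul_comm, zpow_mul, zpow_natCast, ← hσ,
          pow_orderOf_eq_one, one_zpow]
      rcases (Nat.dvd_prime hp).mp hd with h | h
      · exact absurd (orderOf_eq_one_iff.mp h) h1
      · exact h
    have heq : Subgroup.zpowers (σ ^ k) = Subgroup.zpowers σ := by
      apply Subgroup.eq_of_le_of_card_ge hle
      rw [Nat.card_zpowers, Nat.card_zpowers, hord, hσ]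
    have hmem : σ ∈ Subgroup.zpowers (σ ^ k) := by
      rw [heq]
      exact Subgroup.mem_zpowers σ
    obtain ⟨m, hm⟩ := Subgroup.mem_zpowers_iff.mp hmem
    rw [← hm]
    exact Equiv.Perm.zpow_apply_eq_self_of_apply_eq_self h m
  · intro h
    exact Equiv.Perm.zpow_apply_eq_self_of_apply_eq_self h k

/-- Burnside's lemma for a permutation of prime order -/
theorem orbits_mul_prime (σ : Equiv.Perm α) {p : ℕ} (hp : p.Prime) (hσ : orderOf σ = p) :
    Nat.card (Quotient (MulAction.orbitRel (Subgroup.zpowers σ) α)) * p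
      = Fintype.card α + (p - 1) * (Finset.univ.filter fun a => σ a = a).card := by
  classical
  haveI : Fintype (Subgroup.zpowers σ) := Fintype.ofFinite _
  haveI : Fintype (Quotient (MulAction.orbitRel (Subgroup.zpowers σ) α)) := Fintype.ofFinite _
  have hB := MulAction.sum_card_fixedBy_eq_card_orbits_mul_card_group (Subgroup.zpowers σ) α
  have hcard : Fintype.card (Subgroup.zpowers σ) = p := by
    rw [← Nat.card_eq_fintype_card, Nat.card_zpowers, hσ]
  rw [hcard] at hB
  rw [Nat.card_eq_fintype_card, ← hB]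
  have hone : Fintype.card (MulAction.fixedBy α (1 : Subgroup.zpowers σ)) = Fintype.card α := by
    exact Fintype.card_congr (Equiv.subtypeUnivEquiv
      (fun a => MulAction.mem_fixedBy.mpr (one_smul _ a)))
  have hne : ∀ g ∈ (Finset.univ : Finset (Subgroup.zpowers σ)).erase 1,
      Fintype.card (MulAction.fixedBy α g) = (Finset.univ.filter fun a => σ a = a).card := by
    intro g hg
    have hg1 : g ≠ 1 := (Finset.mem_erase.mp hg).1
    have hg1' : (g : Equiv.Perm α) ≠ 1 := fun h => hg1 (Subtype.ext h)
    rw [← Fintype.card_subtype]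
    apply Fintype.card_congr
    refine Equiv.subtypeEquivRight (fun a => ?_)
    rw [MulAction.mem_fixedBy]
    exact fixed_zpowers_iff hp hσ g.2 hg1' a
  rw [← Finset.add_sum_erase _ _ (Finset.mem_univ (1 : Subgroup.zpowers σ)), hone,
    Finset.sum_congr rfl hne, Finset.sum_const, Finset.card_erase_of_mem (Finset.mem_univ _),
    Finset.card_univ, hcard, smul_eq_mul]

/-- the two-point evaluation on the common fixed space -/
theorem finrank_fix_le_two {x y : Equiv.Perm α} (a0 b0 : α)
    (htr : ∀ a, a ≠ b0 → ∃ g ∈ Subgroup.closure ({x, y} : Set (Equiv.Perm α)), g a0 = a) :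
    finrank ℚ ↥(pmFix x ⊓ pmFix y) ≤ 2 := by
  let ev : ↥(pmFix x ⊓ pmFix y) →ₗ[ℚ] ℚ × ℚ :=
    (LinearMap.prod (LinearMap.proj b0) (LinearMap.proj a0)) ∘ₗ (pmFix x ⊓ pmFix y).subtype
  have hinj : Function.Injective ev := by
    rw [← LinearMap.ker_eq_bot, LinearMap.ker_eq_bot']
    rintro ⟨f, hfx, hfy⟩ hf
    have h1 : f b0 = 0 := congrArg Prod.fst hf
    have h2 : f a0 = 0 := congrArg Prod.snd hf
    apply Subtype.ext
    funext a
    show f a = 0
    by_cases ha : a = b0
    · rw [ha, h1]
    · obtain ⟨g, hg, rfl⟩ := htr a ha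
      rw [pmFix_closure hfx hfy hg, h2]
  have := LinearMap.finrank_le_finrank_of_injective hinj
  simpa using this

theorem single_sub_mem {x y : Equiv.Perm α} {g : Equiv.Perm α}
    (hg : g ∈ Subgroup.closure ({x, y} : Set (Equiv.Perm α))) (a : α) :
    (Pi.single a 1 - Pi.single (g a) 1 : α → ℚ) ∈
      range (LinearMap.funLeft ℚ ℚ x - LinearMap.id) ⊔
        range (LinearMap.funLeft ℚ ℚ y - LinearMap.id) := by
  have key : ∀ (σ : Equiv.Perm α) (a : α), (Pi.single a 1 - Pi.single (σ a) 1 : α → ℚ) ∈
      range (LinearMap.funLeft ℚ ℚ σ - LinearMap.id) := by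
    intro σ a
    refine ⟨Pi.single (σ a) 1, ?_⟩
    funext b
    simp [LinearMap.funLeft_apply, Pi.single_apply, σ.injective.eq_iff]
  induction hg using Subgroup.closure_induction generalizing a with
  | mem g hg =>
    rcases hg with rfl | hg
    · exact Submodule.mem_sup_left (key _ a)
    · rw [Set.mem_singleton_iff] at hg
      rw [hg]
      exact Submodule.mem_sup_right (key _ a)
  | one =>
    rw [Equiv.Perm.one_apply, sub_self]
    exact zero_mem _
  | mul g h _ _ ihg ihh =>
    have e : (Pi.single a 1 - Pi.single ((g * h) a) 1 : α → ℚ)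
        = (Pi.single a 1 - Pi.single (h a) 1) + (Pi.single (h a) 1 - Pi.single (g (h a)) 1) := by
      rw [Equiv.Perm.mul_apply]
      abel
    rw [e]
    exact add_mem (ihh a) (ihg (h a))
  | inv g _ ih =>
    have := ih (g⁻¹ a)
    have e0 : g (g⁻¹ a) = a := by simp
    rw [e0] at this
    have e : (Pi.single a 1 - Pi.single (g⁻¹ a) 1 : α → ℚ)
        = -(Pi.single (g⁻¹ a) 1 - Pi.single a 1) := by abel
    rw [e]
    exact neg_mem this

theorem finrank_comm_ge {x y : Equiv.Perm α} (a0 b0 : α)
    (htr : ∀ a, a ≠ b0 → ∃ g ∈ Subgroup.closure ({x, y} : Set (Equiv.Perm α)), g a0 = a) :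
    Fintype.card α ≤ finrank ℚ ↥(range (LinearMap.funLeft ℚ ℚ x - LinearMap.id) ⊔
        range (LinearMap.funLeft ℚ ℚ y - LinearMap.id)) + 2 := by
  let π : (α → ℚ) →ₗ[ℚ] ℚ × ℚ :=
    LinearMap.prod (LinearMap.proj b0) (∑ a : α, LinearMap.proj a)
  have hπ : ∀ f : α → ℚ, π f = (f b0, ∑ a, f a) := by
    intro f
    simp [π, LinearMap.sum_apply]
  have h1 := LinearMap.finrank_range_add_finrank_ker π
  rw [Module.finrank_fintype_fun_eq_card] at h1
  have h2 : finrank ℚ (range π) ≤ 2 := by
    have := Submodule.finrank_le (range π)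
    simpa using this
  have h3 : ker π ≤ range (LinearMap.funLeft ℚ ℚ x - LinearMap.id) ⊔
        range (LinearMap.funLeft ℚ ℚ y - LinearMap.id) := by
    intro f hf
    rw [LinearMap.mem_ker, hπ, Prod.mk_eq_zero] at hf
    obtain ⟨hb, hs⟩ := hf
    have e : f = ∑ a : α, f a • (Pi.single a 1 - Pi.single a0 1 : α → ℚ) := by
      funext b
      simp only [Finset.sum_apply, Pi.smul_apply, Pi.sub_apply, Pi.single_apply, smul_eq_mul,
        mul_sub, Finset.sum_sub_distrib, mul_ite, mul_one, mul_zero]
      rw [Finset.sum_ite_eq, if_pos (Finset.mem_univ _)]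
      by_cases hba : b = a0
      · simp [hba, hs]
      · simp [hba]
    rw [e]
    apply Submodule.sum_mem
    intro a _
    by_cases ha : a = b0
    · rw [ha, hb, zero_smul]
      exact zero_mem _
    · obtain ⟨g, hg, rfl⟩ := htr a ha
      apply Submodule.smul_mem
      have := single_sub_mem hg a0
      have e2 : (Pi.single (g a0) 1 - Pi.single a0 1 : α → ℚ)
          = -(Pi.single a0 1 - Pi.single (g a0) 1) := by abel
      rw [e2]
      exact neg_mem this
  have h4 := Submodule.finrank_mono h3
  omega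

/-- the Ree--Scott inequality: a pair of permutations generating a group that is transitive on the
points other than `b0` -/
theorem scott_perm {x y : Equiv.Perm α} (a0 b0 : α)
    (htr : ∀ a, a ≠ b0 → ∃ g ∈ Subgroup.closure ({x, y} : Set (Equiv.Perm α)), g a0 = a) :
    finrank ℚ (pmFix x) + finrank ℚ (pmFix y) + finrank ℚ (pmFix (x * y))
      ≤ Fintype.card α + 4 := by
  have h := scott_ineq (LinearMap.funLeft ℚ ℚ x) (LinearMap.funLeft ℚ ℚ y)
  have e : LinearMap.funLeft ℚ ℚ y ∘ₗ LinearMap.funLeft ℚ ℚ x = LinearMap.funLeft ℚ ℚ (x * y) := by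
    apply LinearMap.ext
    intro f
    funext a
    simp [LinearMap.funLeft_apply]
  rw [e, Module.finrank_fintype_fun_eq_card] at h
  have h1 := finrank_fix_le_two a0 b0 htr
  have h2 := finrank_comm_ge a0 b0 htr
  unfold pmFix at h1 ⊢
  omega

end Cfsg.Agent.H93
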