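import Cfsg.Agent.H93.U33Defs
import Cfsg.Agent.H44.PSL2Deg
import Cfsg.Agent.H4.OddSixteen

set_option autoImplicit false

/-! Assembly of S3670 from the pieces whose statements are in `U33Defs`. -/

namespace Cfsg.Agent.H93.U33

open Cfsg Cfsg.Agent.H6.G22 Cfsg.Agent.H6.L29

theorem prime_dvd_6048 {p : ℕ} (hp : p.Prime) (h : p ∣ 6048) : p = 2 ∨ p = 3 ∨ p = 7 := by
  have h1 : (6048 : ℕ) = 2 ^ 5 * 3 ^ 3 * 7 := by norm_num
  rw [h1] at h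
  rcases (Nat.Prime.dvd_mul hp).mp h with h2 | h2
  · rcases (Nat.Prime.dvd_mul hp).mp h2 with h3 | h3
    · left; exact (Nat.prime_dvd_prime_iff_eq hp Nat.prime_two).mp (hp.dvd_of_dvd_pow h3)
    · right; left
      exact (Nat.prime_dvd_prime_iff_eq hp Nat.prime_three).mp (hp.dvd_of_dvd_pow h3)
  · right; right; exact (Nat.prime_dvd_prime_iff_eq hp (by norm_num)).mp h2

/-- the degree set divides 6048 and has the three edges -/
def Good (cd : Set ℕ) : Prop :=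
  (∀ d ∈ cd, d ∣ 6048) ∧ (∃ d ∈ cd, 6 ∣ d) ∧ (∃ d ∈ cd, 14 ∣ d) ∧ (∃ d ∈ cd, 21 ∣ d)

theorem degreePrimes_of_good {G : Type*} [Group G] (h : Good (charDegrees G)) :
    degreePrimes G = {p | p = 2 ∨ p = 3 ∨ p = 7} := by
  obtain ⟨hdvd, ⟨d6, hd6, h6⟩, ⟨d14, hd14, h14⟩, ⟨d21, hd21, h21⟩⟩ := h
  ext p
  constructor
  · rintro ⟨hp, d, hd, hpd⟩
    exact prime_dvd_6048 hp (hpd.trans (hdvd d hd))
  · rintro (rfl | rfl | rfl)
    · exact ⟨Nat.prime_two, d6, hd6, (by norm_num : 2 ∣ 6).trans h6⟩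
    · exact ⟨Nat.prime_three, d6, hd6, (by norm_num : 3 ∣ 6).trans h6⟩
    · exact ⟨by norm_num, d14, hd14, (by norm_num : 7 ∣ 14).trans h14⟩

theorem degreeGraph_adj_of_good {G : Type*} [Group G] (h : Good (charDegrees G)) (p q : ℕ) :
    (degreeGraph G).Adj p q ↔
      p ≠ q ∧ (p = 2 ∨ p = 3 ∨ p = 7) ∧ (q = 2 ∨ q = 3 ∨ q = 7) := by
  obtain ⟨hdvd, ⟨d6, hd6, h6⟩, ⟨d14, hd14, h14⟩, ⟨d21, hd21, h21⟩⟩ := h
  constructor
  · rintro ⟨hne, hp, hq, d, hd, hpq⟩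
    exact ⟨hne, prime_dvd_6048 hp ((Dvd.intro _ rfl).trans (hpq.trans (hdvd d hd))),
      prime_dvd_6048 hq ((Dvd.intro_left _ rfl).trans (hpq.trans (hdvd d hd)))⟩
  · rintro ⟨hne, hp, hq⟩
    have e6 : (2 : ℕ) * 3 ∣ d6 := h6
    have e6' : (3 : ℕ) * 2 ∣ d6 := h6
    have e14 : (2 : ℕ) * 7 ∣ d14 := h14
    have e14' : (7 : ℕ) * 2 ∣ d14 := h14
    have e21 : (3 : ℕ) * 7 ∣ d21 := h21
    have e21' : (7 : ℕ) * 3 ∣ d21 := h21
    have p2 : Nat.Prime 2 := Nat.prime_two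
    have p3 : Nat.Prime 3 := Nat.prime_three
    have p7 : Nat.Prime 7 := by norm_num
    rcases hp with rfl | rfl | rfl <;> rcases hq with rfl | rfl | rfl
    · exact absurd rfl hne
    · exact ⟨hne, p2, p3, d6, hd6, e6⟩
    · exact ⟨hne, p2, p7, d14, hd14, e14⟩
    · exact ⟨hne, p3, p2, d6, hd6, e6'⟩
    · exact absurd rfl hne
    · exact ⟨hne, p3, p7, d21, hd21, e21⟩
    · exact ⟨hne, p7, p2, d14, hd14, e14'⟩
    · exact ⟨hne, p7, p3, d21, hd21, e21'⟩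
    · exact absurd rfl hne

theorem cd_dvd_card {G : Type*} [Group G] [Finite G] {d : ℕ} (hd : d ∈ charDegrees G) :
    d ∣ Nat.card G := by
  obtain ⟨χ, rfl⟩ := hd
  obtain ⟨n, hn, h1⟩ := Cfsg.Agent.H4.irr_degree_dvd_card χ
  rw [Cfsg.Agent.H44.charDegree_eq_of_one_eq h1]
  exact hn

theorem main_of (hRkT : StmtRkT) (hRkR : StmtRkR) (hRkI : StmtRkI) (hRkM : StmtRkM)
    (hSpec : StmtSpec) (hTI1 : StmtTI1) (hTI2 : StmtTI2) (hTI3 : StmtTI3) (hA : StmtSolvA)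
    (hB : StmtSolvB) (hProd : StmtProd)
    {F : Type*} [Field F] [Fintype F] (hF : Fintype.card F = 9) :
    ∃ (H : Type) (_ : Group H) (_ : Fintype H), Group.IsSolvable H ∧ Nat.card H = 6048 ∧
      Cfsg.degreePrimes H = Cfsg.degreePrimes (Cfsg.PSU 3 F 3) ∧
      Cfsg.degreeGraph H = Cfsg.degreeGraph (Cfsg.PSU 3 F 3) := by
  classical
  -- the unitary side
  have hcard9 : Nat.card SU9 = 6048 := su_card card_gf9
  haveI : IsSimpleGroup SU9 := su9_simple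
  have hinv : ∀ (X : SU9) (i j : Fin 63), adjM (rho X i) (rho X j) = adjM i j := by
    intro X i j
    unfold adjM
    simp only [Matrix.of_apply]
    by_cases h : orth i j
    · rw [if_pos h, if_pos ((hRkI X i j).mpr h)]
    · rw [if_neg h, if_neg (fun h' => h ((hRkI X i j).mp h'))]
  obtain ⟨hM1, hM2, hM3, hM4⟩ := hRkM hRkT hRkI
  obtain ⟨h14, h21⟩ := hSpec SU9 rho adjM hRkT hRkR hinv hM1 hM2 hM3 hM4
  obtain ⟨P, hP, hC, hN⟩ := hTI1
  obtain ⟨d6, hd6, h6⟩ := hTI3 SU9 hcard9 (hTI2 SU9 hcard9 P hP hC hN)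
  have hgoodU : Good (charDegrees SU9) :=
    ⟨fun d hd => hcard9 ▸ cd_dvd_card hd, ⟨d6, hd6, h6⟩, ⟨14, h14, dvd_rfl⟩, ⟨21, h21, dvd_rfl⟩⟩
  -- transfer to `PSU 3 F 3`
  let eK : GF9 ≃+* F := FiniteField.ringEquivOfCardEq (card_gf9.trans hF.symm)
  let e : SU9 ≃* Cfsg.PSU 3 F 3 :=
    (Cfsg.Agent.H6.GroupAux.suMapEquiv eK 3 3).trans (suEquivPSU hF)
  have hcdP : charDegrees (Cfsg.PSU 3 F 3) = charDegrees SU9 :=
    (Cfsg.Agent.H44.charDegrees_congr e).symm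
  have hgoodP : Good (charDegrees (Cfsg.PSU 3 F 3)) := by rw [hcdP]; exact hgoodU
  -- the solvable side
  obtain ⟨A, iA, fA, hAs, hAc, hA7⟩ := hA
  obtain ⟨B, iB, fB, hBs, hBc, hB6⟩ := hB
  have h42 : 7 * 6 ∈ charDegrees (A × B) := hProd A B 7 6 hA7 hB6
  have hcardH : Nat.card (A × B) = 6048 := by rw [Nat.card_prod, hAc, hBc]
  have hgoodH : Good (charDegrees (A × B)) :=
    ⟨fun d hd => hcardH ▸ cd_dvd_card hd, ⟨42, h42, by norm_num⟩, ⟨42, h42, by norm_num⟩,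
      ⟨42, h42, by norm_num⟩⟩
  refine ⟨A × B, inferInstance, inferInstance, inferInstance, hcardH, ?_, ?_⟩
  · rw [degreePrimes_of_good hgoodH, degreePrimes_of_good hgoodP]
  · ext p q
    rw [degreeGraph_adj_of_good hgoodH, degreeGraph_adj_of_good hgoodP]

end Cfsg.Agent.H93.U33
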