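import Cfsg.Agent.H93.U33Defs

set_option autoImplicit false

/-! Pieces U-RKT and U-RKR of S3670: `SU₃(3)` is transitive on the 63 non-isotropic points and a
point stabiliser has at most 4 orbits.  Explicit unitary matrices, tabulated permutations and
words. -/

namespace Cfsg.Agent.H93.U33

open Cfsg Cfsg.Agent.H6.G22 Cfsg.Agent.H6.L29

def mT : M3 := !![⟨2, 0⟩, ⟨0, 0⟩, ⟨0, 0⟩; ⟨0, 0⟩, ⟨2, 1⟩, ⟨1, 2⟩; ⟨0, 0⟩, ⟨1, 1⟩, ⟨1, 1⟩]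

theorem mT_u : mT.transpose * mT.map (· ^ 3) = 1 := by decide

theorem mT_det : mT.det = 1 := by rw [Matrix.det_fin_three]; decide

def xT : SU9 :=
  ⟨⟨mT, mT_det⟩, fun u v => Cfsg.Agent.H6.U33.herm_of_unitary three_zero mT mT_u u v⟩

def mS1 : M3 := !![⟨0, 0⟩, ⟨0, 1⟩, ⟨0, 0⟩; ⟨2, 0⟩, ⟨0, 0⟩, ⟨0, 0⟩; ⟨0, 0⟩, ⟨0, 0⟩, ⟨0, 2⟩]

theorem mS1_u : mS1.transpose * mS1.map (· ^ 3) = 1 := by decide

theorem mS1_det : mS1.det = 1 := by rw [Matrix.det_fin_three]; decide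

def xS1 : SU9 :=
  ⟨⟨mS1, mS1_det⟩, fun u v => Cfsg.Agent.H6.U33.herm_of_unitary three_zero mS1 mS1_u u v⟩

def mS2 : M3 := !![⟨2, 1⟩, ⟨1, 2⟩, ⟨0, 0⟩; ⟨1, 1⟩, ⟨1, 1⟩, ⟨0, 0⟩; ⟨0, 0⟩, ⟨0, 0⟩, ⟨2, 0⟩]

theorem mS2_u : mS2.transpose * mS2.map (· ^ 3) = 1 := by decide

theorem mS2_det : mS2.det = 1 := by rw [Matrix.det_fin_three]; decide

def xS2 : SU9 :=
  ⟨⟨mS2, mS2_det⟩, fun u v => Cfsg.Agent.H6.U33.herm_of_unitary three_zero mS2 mS2_u u v⟩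

def tab_sA : List ℕ := [0, 1, 2, 3, 4, 5, 6, 8, 7, 10, 9, 16, 20, 19, 18, 17, 11, 15, 14, 13, 12, 42, 46, 45, 44, 43, 56, 55, 60, 62, 61, 57, 59, 58, 48, 47, 52, 54, 53, 49, 51, 50, 21, 25, 24, 23, 22, 35, 34, 39, 41, 40, 36, 38, 37, 27, 26, 31, 33, 32, 28, 30, 29]

def tab_sB : List ℕ := [1, 6, 11, 16, 21, 42, 0, 3, 2, 4, 5, 8, 35, 56, 27, 48, 7, 47, 26, 55, 34, 9, 28, 36, 49, 57, 61, 32, 53, 24, 19, 40, 14, 45, 41, 54, 62, 15, 25, 33, 46, 20, 10, 60, 52, 39, 31, 50, 37, 29, 17, 43, 58, 22, 12, 30, 59, 38, 44, 13, 51, 18, 23]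

def tab_xT : List ℕ := [2, 3, 4, 5, 0, 1, 6, 59, 32, 54, 37, 30, 49, 25, 35, 12, 61, 20, 47, 43, 39, 41, 60, 27, 23, 19, 36, 15, 31, 8, 58, 18, 53, 21, 46, 34, 56, 29, 10, 24, 16, 51, 50, 13, 45, 55, 28, 48, 22, 44, 40, 11, 26, 9, 62, 17, 52, 14, 42, 38, 57, 33, 7]

def tab_xS1 : List ℕ := [0, 6, 8, 7, 10, 9, 1, 5, 4, 2, 3, 21, 24, 22, 25, 23, 42, 44, 46, 43, 45, 11, 15, 14, 13, 12, 58, 62, 59, 60, 55, 61, 56, 57, 40, 38, 37, 35, 39, 41, 36, 34, 16, 17, 18, 19, 20, 51, 53, 54, 47, 49, 50, 52, 48, 33, 29, 32, 28, 27, 30, 26, 31]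

def tab_xS2 : List ℕ := [0, 11, 14, 13, 12, 15, 16, 18, 19, 20, 17, 21, 23, 25, 22, 24, 42, 46, 45, 44, 43, 1, 4, 3, 2, 5, 50, 54, 51, 52, 47, 53, 48, 49, 33, 29, 32, 28, 27, 30, 26, 31, 6, 8, 10, 9, 7, 34, 35, 36, 37, 38, 39, 40, 41, 60, 57, 55, 61, 58, 56, 62, 59]

/-- the five generators -/
def gen : Fin 5 → SU9 := ![sA, sB, xT, xS1, xS2]

/-- their tabulated actions -/
def gact (a : Fin 5) (j : ℕ) : ℕ := ((![tab_sA, tab_sB, tab_xT, tab_xS1, tab_xS2] : Fin 5 → List ℕ) a).getD j 0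

set_option maxRecDepth 100000 in
theorem act_sA : ∀ j : Fin 63, (act9 Amat j).val = tab_sA.getD j.val 0 := by decide +kernel

set_option maxRecDepth 100000 in
theorem act_sB : ∀ j : Fin 63, (act9 Bmat j).val = tab_sB.getD j.val 0 := by decide +kernel

set_option maxRecDepth 100000 in
theorem act_xT : ∀ j : Fin 63, (act9 mT j).val = tab_xT.getD j.val 0 := by decide +kernel

set_option maxRecDepth 100000 in
theorem act_xS1 : ∀ j : Fin 63, (act9 mS1 j).val = tab_xS1.getD j.val 0 := by decide +kernel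

set_option maxRecDepth 100000 in
theorem act_xS2 : ∀ j : Fin 63, (act9 mS2 j).val = tab_xS2.getD j.val 0 := by decide +kernel

theorem gact_spec (a : Fin 5) (j : Fin 63) : (rho (gen a) j).val = gact a j.val := by
  rw [rho_apply]
  fin_cases a
  · exact act_sA j
  · exact act_sB j
  · exact act_xT j
  · exact act_xS1 j
  · exact act_xS2 j

/-- the action of a word on indices -/
def wact (w : List (Fin 5)) (j : ℕ) : ℕ := w.foldr (fun a k => gact a k) j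

/-- the group element of a word -/
def wprod (w : List (Fin 5)) : SU9 := (w.map gen).prod

theorem wprod_spec (w : List (Fin 5)) (j : Fin 63) : (rho (wprod w) j).val = wact w j.val := by
  induction w with
  | nil => simp [wprod, wact]
  | cons a w ih =>
    have h1 : wprod (a :: w) = gen a * wprod w := by simp [wprod]
    rw [h1, map_mul, Equiv.Perm.mul_apply, gact_spec, ih]
    rfl

def wT : List (List (Fin 5)) :=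
  [[],
   [1],
   [2],
   [2, 1],
   [2, 2],
   [2, 2, 1],
   [1, 1],
   [1, 1, 2, 1],
   [1, 1, 2],
   [1, 1, 2, 2],
   [1, 1, 2, 2, 1],
   [1, 2],
   [1, 2, 1, 1, 2, 2],
   [0, 1, 2, 1, 2],
   [1, 2, 1, 1, 2],
   [1, 2, 1, 1, 2, 2, 1],
   [1, 2, 1],
   [1, 2, 1, 2, 2, 1],
   [1, 2, 1, 2, 1],
   [1, 2, 1, 2],
   [1, 2, 1, 2, 2],
   [1, 2, 2],
   [1, 2, 2, 1, 1, 2],
   [0, 1, 2, 2, 1, 2, 1],
   [0, 1, 2, 2, 1, 2],
   [2, 0, 1, 2, 1, 2],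
   [1, 1, 2, 1, 2, 1],
   [1, 1, 2, 1, 1, 2],
   [1, 1, 2, 2, 1, 1, 2],
   [2, 2, 1, 1, 2, 2, 1],
   [2, 1, 2],
   [1, 1, 2, 2, 1, 2, 2, 1],
   [2, 1, 1, 2],
   [2, 2, 1, 2, 1],
   [1, 1, 2, 1, 2, 2],
   [2, 1, 2, 1, 1, 2],
   [2, 1, 1, 2, 1, 2, 1],
   [2, 1, 1, 2, 2, 1],
   [2, 2, 1, 1, 2, 1],
   [2, 1, 2, 1, 2, 2],
   [2, 2, 1, 2, 2, 1],
   [2, 1, 2, 2],
   [1, 2, 2, 1],
   [2, 1, 2, 1, 2],
   [1, 2, 2, 1, 2],
   [1, 2, 2, 1, 2, 1],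
   [1, 2, 2, 1, 2, 2, 1],
   [2, 1, 2, 1, 2, 1],
   [2, 2, 1, 2, 1, 2, 1],
   [1, 0, 1, 2, 2, 1, 2],
   [2, 1, 2, 2, 1],
   [2, 2, 1, 2, 2],
   [1, 1, 2, 2, 1, 2],
   [2, 2, 1, 1, 2],
   [2, 1, 1, 2, 2],
   [1, 1, 2, 1, 2],
   [1, 0, 1, 2, 1, 2],
   [1, 2, 0, 1, 2, 1, 2],
   [2, 2, 1, 2],
   [2, 1, 1, 2, 1],
   [1, 2, 1, 2, 1, 2],
   [2, 1, 2, 1],
   [2, 2, 1, 1, 2, 2]]

def wR : List (List (Fin 5)) :=
  [[],
   [],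
   [],
   [3, 3, 3, 3],
   [3, 3],
   [4, 3, 4],
   [3],
   [3, 3, 3, 3, 3],
   [3],
   [3, 4, 3, 4],
   [3, 3, 3],
   [4],
   [4, 3, 3],
   [4, 3, 3, 3, 3],
   [4],
   [3, 4, 4],
   [4, 3],
   [4, 3, 3, 3],
   [3, 4, 4, 3],
   [4, 3],
   [4, 3, 4, 3, 4],
   [3, 4],
   [4, 4],
   [4, 4, 3, 3],
   [3, 4, 3, 3],
   [3, 4],
   [],
   [3, 3, 3, 3],
   [3, 3],
   [4, 3, 4, 4],
   [4, 3, 4, 4, 3, 3],
   [3, 4, 4, 3],
   [4, 4, 3, 4, 3, 3],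
   [4, 4, 3, 4],
   [4, 3, 4],
   [3, 4, 4],
   [4, 3, 4, 3, 3],
   [4, 4],
   [4, 4, 3, 3],
   [3, 4, 4, 3, 3],
   [3, 4, 3, 4],
   [4, 4, 3, 3, 3, 3],
   [3, 4, 3],
   [3, 4, 3],
   [4, 4, 3],
   [4, 3, 4, 4, 3],
   [4, 4, 3, 3, 3],
   [3, 4],
   [3, 4, 3, 3, 3, 3],
   [3, 4, 3, 3],
   [4],
   [4, 3, 3],
   [4, 4, 3, 4, 4],
   [4, 3, 4, 4, 3],
   [4, 3, 3, 3, 3],
   [4, 3, 4, 4, 3, 4],
   [4, 3, 4, 3, 4, 4],
   [3, 4, 4, 3, 4],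
   [3],
   [3, 3, 3],
   [3, 4, 3, 4, 4],
   [4, 3],
   [4, 4, 3]]

set_option maxRecDepth 100000 in
theorem wT_chk : ∀ i : Fin 63, wact (wT.getD i.val []) 0 = i.val := by decide +kernel

set_option maxRecDepth 100000 in
theorem wR_chk : ∀ i : Fin 63, wact (wR.getD i.val []) 0 = 0 ∧
    (wact (wR.getD i.val []) 0 = i.val ∨ wact (wR.getD i.val []) 1 = i.val ∨
      wact (wR.getD i.val []) 2 = i.val ∨ wact (wR.getD i.val []) 26 = i.val) := by decide +kernel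

theorem rkT : StmtRkT := by
  intro i
  refine ⟨wprod (wT.getD i.val []), Fin.ext ?_⟩
  rw [wprod_spec]
  exact wT_chk i

theorem rkR : StmtRkR := by
  refine ⟨1, 2, 26, fun i => ⟨wprod (wR.getD i.val []), Fin.ext ?_, ?_⟩⟩
  · rw [wprod_spec]
    exact (wR_chk i).1
  · rcases (wR_chk i).2 with h | h | h | h
    · left; apply Fin.ext; rw [wprod_spec]; exact h
    · right; left; apply Fin.ext; rw [wprod_spec]; exact h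
    · right; right; left; apply Fin.ext; rw [wprod_spec]; exact h
    · right; right; right; apply Fin.ext; rw [wprod_spec]; exact h

end Cfsg.Agent.H93.U33
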