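import Cfsg.Agent.H93.U33Defs

set_option autoImplicit false

/-! Piece U-RKI of S3670: orthogonality of the 63 points is invariant under `SU₃(3)`. -/

namespace Cfsg.Agent.H93.U33

open Cfsg Cfsg.Agent.H6.G22 Cfsg.Agent.H6.L29

theorem herm_smul_smul (l l' : GF9) (u v : Fin 3 → GF9) :
    Cfsg.hermForm 3 GF9 3 (l • u) (l' • v) = l * l' ^ 3 * Cfsg.hermForm 3 GF9 3 u v := by
  unfold Cfsg.hermForm
  rw [Finset.mul_sum]
  refine Finset.sum_congr rfl fun i _ => ?_
  simp only [Pi.smul_apply, smul_eq_mul, mul_pow]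
  ring

theorem rkI : StmtRkI := by
  intro X i j
  obtain ⟨l, hl, h1⟩ := act9_spec X.1.1 (su_isU X) i
  obtain ⟨l', hl', h2⟩ := act9_spec X.1.1 (su_isU X) j
  have h3 := su_isU X (ptn i.val) (ptn j.val)
  rw [h1, h2, herm_smul_smul] at h3
  unfold orth
  rw [rho_apply, rho_apply, ← h3]
  constructor
  · intro h
    rw [h, mul_zero]
  · intro h
    rcases mul_eq_zero.mp h with h4 | h4
    · exfalso
      rcases mul_eq_zero.mp h4 with h5 | h5
      · exact hl h5
      · exact hl' ((pow_eq_zero_iff (by norm_num)).mp h5)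
    · exact h4

end Cfsg.Agent.H93.U33
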