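import Mathlib
import Cfsg.Agent.H93.U33Defs
import Cfsg.Agent.H4.TwoTrans

set_option autoImplicit false
set_option linter.style.haveILetI false

/-! U-SOLVA for S3670: `AGL(1,8)` is a solvable group of order 56 with an irreducible character
of degree 7 (it is 2-transitive on the 8 points of the field). -/

namespace Cfsg.Agent.H93.U33

open Cfsg SemidirectProduct

/-- the field with 8 elements -/
abbrev F8 : Type := GaloisField 2 3

/-- the action of the units on the additive group -/
noncomputable def phi8 : F8ˣ →* MulAut (Multiplicative F8) :=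
  (MulAutMultiplicative F8).symm.toMonoidHom.comp AddAut.mulLeft

/-- `AGL(1,8)` -/
abbrev Agl8 : Type := Multiplicative F8 ⋊[phi8] F8ˣ

theorem phi8_apply (u : F8ˣ) (x : Multiplicative F8) :
    phi8 u x = Multiplicative.ofAdd ((u : F8) * x.toAdd) := rfl

theorem agl8_card : Nat.card Agl8 = 56 := by
  rw [SemidirectProduct.card, Nat.card_congr Multiplicative.toAdd, GaloisField.card 2 3 (by norm_num)]
  have h : Nat.card F8ˣ = 7 := by
    haveI : Fintype F8 := Fintype.ofFinite F8
    classical
    rw [Nat.card_eq_fintype_card, Fintype.card_units, ← Nat.card_eq_fintype_card,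
      GaloisField.card 2 3 (by norm_num)]
    norm_num
  rw [h]
  norm_num

theorem agl8_solvable : Group.IsSolvable Agl8 := by
  haveI : Group.IsSolvable (Multiplicative F8) := Group.isSolvable_of_comm (fun a b => mul_comm a b)
  haveI : Group.IsSolvable F8ˣ := Group.isSolvable_of_comm (fun a b => mul_comm a b)
  exact Group.isSolvable_of_ker_le_range (inl : Multiplicative F8 →* Agl8)
    (rightHom : Agl8 →* F8ˣ) (le_of_eq range_inl_eq_ker_rightHom.symm)

noncomputable instance agl8Action : MulAction Agl8 F8 where
  smul p x := (p.right : F8) * x + p.left.toAdd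
  one_smul x := by
    show ((1 : Agl8).right : F8) * x + (1 : Agl8).left.toAdd = x
    simp
  mul_smul p q x := by
    show ((p * q).right : F8) * x + (p * q).left.toAdd =
      (p.right : F8) * ((q.right : F8) * x + q.left.toAdd) + p.left.toAdd
    rw [SemidirectProduct.mul_right, SemidirectProduct.mul_left, phi8_apply]
    simp only [Units.val_mul, toAdd_mul, toAdd_ofAdd]
    ring

theorem agl8_smul (p : Agl8) (x : F8) : p • x = (p.right : F8) * x + p.left.toAdd := rfl

theorem agl8_two : MulAction.IsMultiplyPretransitive Agl8 F8 2 := by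
  rw [MulAction.is_two_pretransitive_iff]
  intro a b c d hab hcd
  have h1 : a - b ≠ 0 := sub_ne_zero.mpr hab
  have h2 : c - d ≠ 0 := sub_ne_zero.mpr hcd
  have h3 : (c - d) / (a - b) ≠ 0 := div_ne_zero h2 h1
  refine ⟨⟨Multiplicative.ofAdd (c - (c - d) / (a - b) * a), Units.mk0 _ h3⟩, ?_, ?_⟩
  · rw [agl8_smul]
    simp
  · rw [agl8_smul]
    simp only [Units.val_mk0, toAdd_ofAdd]
    field_simp
    ring

theorem solvA : StmtSolvA := by
  haveI : Fintype F8 := Fintype.ofFinite F8
  haveI : Finite Agl8 := Finite.of_equiv (Multiplicative F8 × F8ˣ) equivProd.symm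
  have h8 : Nat.card F8 = 8 := by rw [GaloisField.card 2 3 (by norm_num)]; norm_num
  haveI := agl8_two
  haveI : MulAction.IsPretransitive Agl8 F8 :=
    MulAction.isPretransitive_of_is_two_pretransitive
  have hirr := (Cfsg.Agent.H4.isIrrCharacter_perm_sub_one_iff (G := Agl8) F8
    (by rw [h8]; norm_num)).mpr agl8_two
  refine ⟨Agl8, inferInstance, Fintype.ofFinite Agl8, agl8_solvable, agl8_card, ⟨_, hirr⟩, ?_⟩
  unfold charDegree
  simp only
  rw [MulAction.fixedBy_one_eq_univ, Nat.card_coe_set_eq, Set.ncard_univ, h8]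
  norm_num

end Cfsg.Agent.H93.U33
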