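import Mathlib
import Cfsg.Agent.H93.U33Defs
import Cfsg.Agent.H51.AnChar
import Cfsg.Agent.H20.U33Prod

set_option autoImplicit false
set_option linter.style.haveILetI false

/-! U-SOLVB for S3670: `AGL(1, ℤ/9) × C₂` is a solvable group of order 108 with an irreducible
character of degree 6: on `AGL(1, ℤ/9)` the difference of the permutation characters on `ℤ/9` and
on `ℤ/3` is a generalized character of norm one and degree 6. -/

namespace Cfsg.Agent.H93.U33

open Cfsg SemidirectProduct

/-- the action of the units of `ZMod 9` on its additive group -/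
def phi9 : (ZMod 9)ˣ →* MulAut (Multiplicative (ZMod 9)) :=
  (MulAutMultiplicative (ZMod 9)).symm.toMonoidHom.comp AddAut.mulLeft

/-- `AGL(1, ℤ/9)`, of order 54 -/
abbrev Agl9 : Type := Multiplicative (ZMod 9) ⋊[phi9] (ZMod 9)ˣ

theorem phi9_apply (u : (ZMod 9)ˣ) (x : Multiplicative (ZMod 9)) :
    phi9 u x = Multiplicative.ofAdd ((u : ZMod 9) * x.toAdd) := rfl

theorem agl9_card : Nat.card Agl9 = 54 := by
  have h1 : Nat.card (Multiplicative (ZMod 9)) = 9 := by
    rw [Nat.card_congr Multiplicative.toAdd, Nat.card_eq_fintype_card, ZMod.card]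
  have h2 : Nat.card (ZMod 9)ˣ = 6 := by
    rw [Nat.card_eq_fintype_card]
    decide +kernel
  rw [SemidirectProduct.card, h1, h2]

theorem agl9_solvable : Group.IsSolvable Agl9 := by
  haveI : Group.IsSolvable (Multiplicative (ZMod 9)) :=
    Group.isSolvable_of_comm (fun a b => mul_comm a b)
  haveI : Group.IsSolvable (ZMod 9)ˣ := Group.isSolvable_of_comm (fun a b => mul_comm a b)
  exact Group.isSolvable_of_ker_le_range (inl : Multiplicative (ZMod 9) →* Agl9)
    (rightHom : Agl9 →* (ZMod 9)ˣ) (le_of_eq range_inl_eq_ker_rightHom.symm)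

/-- reduction modulo 3 -/
def red3 : ZMod 9 →+* ZMod 3 := ZMod.castHom (by norm_num) (ZMod 3)

instance agl9X : MulAction Agl9 (ZMod 9) where
  smul p x := (p.right : ZMod 9) * x + p.left.toAdd
  one_smul x := by
    show ((1 : Agl9).right : ZMod 9) * x + (1 : Agl9).left.toAdd = x
    simp
  mul_smul p q x := by
    show ((p * q).right : ZMod 9) * x + (p * q).left.toAdd =
      (p.right : ZMod 9) * ((q.right : ZMod 9) * x + q.left.toAdd) + p.left.toAdd
    rw [SemidirectProduct.mul_right, SemidirectProduct.mul_left, phi9_apply]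
    simp only [Units.val_mul, toAdd_mul, toAdd_ofAdd]
    ring

instance agl9Y : MulAction Agl9 (ZMod 3) where
  smul p y := red3 (p.right : ZMod 9) * y + red3 p.left.toAdd
  one_smul y := by
    show red3 ((1 : Agl9).right : ZMod 9) * y + red3 (1 : Agl9).left.toAdd = y
    simp
  mul_smul p q y := by
    show red3 ((p * q).right : ZMod 9) * y + red3 (p * q).left.toAdd =
      red3 (p.right : ZMod 9) * (red3 (q.right : ZMod 9) * y + red3 q.left.toAdd)
        + red3 p.left.toAdd
    rw [SemidirectProduct.mul_right, SemidirectProduct.mul_left, phi9_apply]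
    simp only [Units.val_mul, toAdd_mul, toAdd_ofAdd, map_mul, map_add]
    ring

theorem agl9X_smul (p : Agl9) (x : ZMod 9) : p • x = (p.right : ZMod 9) * x + p.left.toAdd := rfl

theorem agl9Y_smul (p : Agl9) (y : ZMod 3) :
    p • y = red3 (p.right : ZMod 9) * y + red3 p.left.toAdd := rfl

/-- fixed points on `ℤ/9` minus fixed points on `ℤ/3` of `x ↦ u x + b` -/
def zfun (b : ZMod 9) (u : (ZMod 9)ˣ) : ℤ :=
  ((Finset.univ.filter (fun x : ZMod 9 => (u : ZMod 9) * x + b = x)).card : ℤ) -
    ((Finset.univ.filter (fun y : ZMod 3 => red3 (u : ZMod 9) * y + red3 b = y)).card : ℤ)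

set_option maxRecDepth 100000 in
theorem zfun_sum : ∑ b : ZMod 9, ∑ u : (ZMod 9)ˣ, zfun b u ^ 2 = 54 := by decide +kernel

theorem zfun_one : zfun 0 1 = 6 := by decide +kernel

theorem card_fixedBy_X (g : Agl9) : Nat.card (MulAction.fixedBy (ZMod 9) g) =
    (Finset.univ.filter (fun x : ZMod 9 => (g.right : ZMod 9) * x + g.left.toAdd = x)).card := by
  classical
  rw [Nat.card_eq_fintype_card, Fintype.card_subtype]
  congr 1

theorem card_fixedBy_Y (g : Agl9) : Nat.card (MulAction.fixedBy (ZMod 3) g) =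
    (Finset.univ.filter
      (fun y : ZMod 3 => red3 (g.right : ZMod 9) * y + red3 g.left.toAdd = y)).card := by
  classical
  rw [Nat.card_eq_fintype_card, Fintype.card_subtype]
  congr 1

/-- the irreducible character of degree 6 of `AGL(1, ℤ/9)` -/
noncomputable def theta9 : Agl9 → ℂ := fun g =>
  (Nat.card (MulAction.fixedBy (ZMod 9) g) : ℂ) - (Nat.card (MulAction.fixedBy (ZMod 3) g) : ℂ)

theorem theta9_eq (g : Agl9) : theta9 g = ((zfun g.left.toAdd g.right : ℤ) : ℂ) := by
  unfold theta9 zfun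
  rw [card_fixedBy_X, card_fixedBy_Y]
  push_cast
  rfl

theorem agl9_sum (f : Agl9 → ℤ) [Fintype Agl9] :
    ∑ g : Agl9, f g = ∑ b : ZMod 9, ∑ u : (ZMod 9)ˣ, f ⟨Multiplicative.ofAdd b, u⟩ := by
  rw [← Fintype.sum_prod_type']
  exact Fintype.sum_equiv (equivProd.trans (Equiv.prodCongr Multiplicative.toAdd (Equiv.refl _)))
    _ _ (fun g => rfl)

theorem theta9_irr : IsIrrCharacter Agl9 theta9 := by
  haveI : Finite Agl9 := Finite.of_equiv (Multiplicative (ZMod 9) × (ZMod 9)ˣ) equivProd.symm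
  letI : Fintype Agl9 := Fintype.ofFinite Agl9
  have hX : IsCharacter Agl9 (fun g => (Nat.card (MulAction.fixedBy (ZMod 9) g) : ℂ)) := by
    have h := Cfsg.Agent.H4.isCharacter_of_rep (Cfsg.permRep ℂ Agl9 (ZMod 9))
    have e : (Cfsg.permRep ℂ Agl9 (ZMod 9)).character =
        fun g => (Nat.card (MulAction.fixedBy (ZMod 9) g) : ℂ) :=
      funext fun g => Cfsg.Agent.H16.character_permRep g
    rwa [e] at h
  have hY : IsCharacter Agl9 (fun g => (Nat.card (MulAction.fixedBy (ZMod 3) g) : ℂ)) := by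
    have h := Cfsg.Agent.H4.isCharacter_of_rep (Cfsg.permRep ℂ Agl9 (ZMod 3))
    have e : (Cfsg.permRep ℂ Agl9 (ZMod 3)).character =
        fun g => (Nat.card (MulAction.fixedBy (ZMod 3) g) : ℂ) :=
      funext fun g => Cfsg.Agent.H16.character_permRep g
    rwa [e] at h
  have hgen : IsGeneralizedCharacter Agl9 theta9 := ⟨_, _, hX, hY, rfl⟩
  refine Cfsg.Agent.H51.AnCh.irr_of_int theta9 hgen (fun g => zfun g.left.toAdd g.right) 1
    (by norm_num) ?_ ?_ ?_
  · intro g
    rw [theta9_eq]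
    simp
  · rw [agl9_sum, agl9_card]
    simp only [toAdd_ofAdd]
    rw [zfun_sum]
    norm_num
  · show 0 < zfun 0 1
    rw [zfun_one]
    norm_num

theorem six_mem_agl9 : 6 ∈ Cfsg.charDegrees Agl9 := by
  refine ⟨⟨theta9, theta9_irr⟩, ?_⟩
  unfold charDegree
  have h : theta9 1 = 6 := by
    rw [theta9_eq]
    show ((zfun 0 1 : ℤ) : ℂ) = 6
    rw [zfun_one]
    norm_num
  show ⌊(theta9 1).re⌋₊ = 6
  rw [h]
  norm_num

theorem solvB : StmtSolvB := by
  haveI : Finite Agl9 := Finite.of_equiv (Multiplicative (ZMod 9) × (ZMod 9)ˣ) equivProd.symm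
  haveI := agl9_solvable
  haveI : Group.IsSolvable (Multiplicative (ZMod 2)) :=
    Group.isSolvable_of_comm (fun a b => mul_comm a b)
  have h1 : 1 ∈ Cfsg.charDegrees (Multiplicative (ZMod 2)) := by
    refine ⟨⟨fun _ => 1, Cfsg.Agent.H4.isIrrCharacter_one⟩, ?_⟩
    unfold charDegree
    norm_num
  have h6 := Cfsg.Agent.H20.U33.prod Agl9 (Multiplicative (ZMod 2)) 6 1 six_mem_agl9 h1
  refine ⟨Agl9 × Multiplicative (ZMod 2), inferInstance, Fintype.ofFinite _, inferInstance, ?_, ?_⟩
  · rw [Nat.card_prod, agl9_card, Nat.card_congr Multiplicative.toAdd, Nat.card_eq_fintype_card,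
      ZMod.card]
  · simpa using h6

end Cfsg.Agent.H93.U33
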